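import Cfsg.Agent.H190.IF.Core
import Cfsg.Agent.Nodes.CenVV
import Cfsg.Agent.Nodes.NormalForm

/-!
# S5719: the number of conjugates of a fundamental involution (helper176)

Simply laced root group data; `α` a root, `z` the involution of `⟨X α, X (-α)⟩`.

* `cent_orbit` : `X α` has at most `q + 1` conjugates under `C(z)`;
* `norm_inf` : `N(X α) ∩ Q_{-α} = 1`, `α` dominant;
* `c_bound` : `q^(4d+1) ≤ |L : C_L(z)| (q + 1)`, `L` generated by the root groups orthogonal to the roots of `C`.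
-/

set_option autoImplicit false
set_option linter.unusedSectionVars false

namespace Cfsg.Agent.H176.IFe

open CoxeterSystem Cfsg.Agent.ChevalleyStructure.CoxeterGeom Cfsg.Agent.Tits.Roots Cfsg.Agent.Tits.Core
  Cfsg.Agent.Tits.Exchange Cfsg.Agent.Nodes.Reps Cfsg.Agent.Nodes.BNOf Cfsg.Agent.Nodes.StabComb
  Cfsg.Agent.Nodes.Bruhat Cfsg.Agent.Nodes.OppDec Cfsg.Agent.Nodes.PosPair Cfsg.Agent.Nodes.Coroot
  Cfsg.Agent.Nodes.Unique Cfsg.Agent.KFacts.RgdSL Cfsg.Agent.H557.LrSgn Cfsg.Agent.H190.IF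
open scoped commutatorElement

variable {I W Y : Type*} [Fintype I] [DecidableEq I] [Group W] [Group Y] {M : CoxeterMatrix I}
  {cs : CoxeterSystem M W} {A : I → I → ℤ} {h : IsCartan M A} {p : ℕ} {T : Subgroup Y} {n : I → Y}
  {X : (I → ℤ) → Subgroup Y}

theorem psi_two [Finite W] {α : I → ℤ} (hα : IsRoot cs h α) {β : I → ℤ} (hc : cpr cs h β α = 2) : psi hα β = 0 := by
  rw [psi_apply, hc]; decide

theorem psi_zero [Finite W] {α : I → ℤ} (hα : IsRoot cs h α) {β : I → ℤ} (hc : cpr cs h β α = 0) : psi hα β = 0 := by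
  rw [psi_apply, hc]; decide

theorem psi_one [Finite W] {α : I → ℤ} (hα : IsRoot cs h α) {β : I → ℤ} (hc : cpr cs h β α = 1) : psi hα β ≠ 0 := by
  rw [psi_apply, hc]; decide

theorem psi_neg_one [Finite W] {α : I → ℤ} (hα : IsRoot cs h α) {β : I → ℤ} (hc : cpr cs h β α = -1) :
    psi hα β ≠ 0 := by
  rw [psi_apply, hc]; decide

theorem Inv2.neg [Finite W] {α : I → ℤ} {z : Y} (H : Inv2 cs h T X α z) : Inv2 cs h T X (-α) z := by
  refine ⟨H.root.neg, ?_, ?_⟩
  · have e : psi H.root.neg = psi H.root := by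
      refine AddMonoidHom.ext fun x => ?_
      rw [psi_apply, psi_apply, cpr_neg_right cs h x H.root, Int.cast_neg, neg_zmod2]
    rw [e]
    exact H.sgn
  · intro u hu v hv hu1 hv1
    rw [neg_neg] at hv
    rw [Set.pair_comm]
    exact H.opp v hv u hu hv1 hu1

/-- `z` inverts `Q_α` modulo `X α` -/
theorem inv_mod [Finite W] {α : I → ℤ} {z : Y} (hz : Inv2 cs h T X α z) {S : Finset (I → ℤ)} {o : (I → ℤ) → (I → ℤ)}
    (H : H203.IF.Heis (X α) X S o) (hS : ∀ β ∈ S, IsRoot cs h β ∧ cpr cs h β α = 1) {g : Y}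
    (hg : g ∈ H203.IF.QQ (X α) X S) : z * g * z⁻¹ * g ∈ X α := by
  have key : g ∈ H203.IF.QQ (X α) X S ∧ z * g * z⁻¹ * g ∈ X α := by
    induction hg using Subgroup.closure_induction with
    | mem x hx =>
      rcases hx with hx | ⟨β, hβ, hx⟩
      · refine ⟨H203.IF.Heis.Z_le hx, ?_⟩
        have h1 := hz.sgn.fix α hz.root (psi_two hz.root (cpr_self cs h hz.root)) x hx
        rw [h1, mul_inv_cancel_right]
        exact mul_mem hx hx
      · refine ⟨H203.IF.Heis.X_le hβ hx, ?_⟩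
        rw [hz.sgn.inv β (hS β hβ).1 (psi_one hz.root (hS β hβ).2) x hx, inv_mul_cancel]
        exact one_mem _
    | one => exact ⟨one_mem _, by simp⟩
    | mul a b _ _ iha ihb =>
      obtain ⟨ha, ha'⟩ := iha
      obtain ⟨hb, hb'⟩ := ihb
      refine ⟨mul_mem ha hb, ?_⟩
      have h1 := H.com (inv_mem ha) (inv_mem hb)
      have h2 := H.zQ hb' (inv_mem ha)
      have e : z * (a * b) * z⁻¹ * (a * b) =
          (z * a * z⁻¹ * a) * ((z * b * z⁻¹ * b) * ⁅a⁻¹, b⁻¹⁆) := by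
        calc z * (a * b) * z⁻¹ * (a * b)
            = (z * a * z⁻¹ * a) * (a⁻¹ * (z * b * z⁻¹ * b)) * (b⁻¹ * a * b) := by group
          _ = (z * a * z⁻¹ * a) * ((z * b * z⁻¹ * b) * a⁻¹) * (b⁻¹ * a * b) := by rw [h2]
          _ = _ := by rw [commutatorElement_def]; group
      rw [e]
      exact mul_mem ha' (mul_mem hb' h1)
    | inv a _ iha =>
      obtain ⟨ha, ha'⟩ := iha
      refine ⟨inv_mem ha, ?_⟩
      have h2 := H.zQ ha' ha
      have e : z * a⁻¹ * z⁻¹ * a⁻¹ = (z * a * z⁻¹ * a)⁻¹ := by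
        calc z * a⁻¹ * z⁻¹ * a⁻¹ = (a * (z * a * z⁻¹ * a) * a⁻¹)⁻¹ := by group
          _ = (z * a * z⁻¹ * a)⁻¹ := by rw [← h2, mul_inv_cancel_right]
      rw [e]
      exact inv_mem ha'
  exact key.2

/-- square roots -/
theorem mem_of_sq {H : Subgroup Y} {g : Y} (ho : Odd (orderOf g)) (hg : g * g ∈ H) : g ∈ H := by
  obtain ⟨k, hk⟩ := ho
  have h1 : g = (g * g) ^ (k + 1) := by
    rw [← pow_two, ← pow_mul]
    have : 2 * (k + 1) = orderOf g + 1 := by omega
    rw [this, pow_succ, pow_orderOf_eq_one, one_mul]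
  rw [h1]
  exact pow_mem hg _

section

variable [Finite W] (R : RGD cs h p T n X)

include R

theorem cj_mu {α : I → ℤ} (hα : IsRoot cs h α) {v : Y} (hv : v ∈ X (-α)) (hv1 : v ≠ 1) :
    ∃ a ∈ X α, ∃ b ∈ X α, ∃ m : Y, m = a * v * b ∧ cj m (X α) = X (-α) ∧ cj m (X (-α)) = X α ∧
      (∀ β, IsRoot cs h β → cj m (X β) = X (β - cpr cs h β α • α)) := by
  obtain ⟨s, hs, a, ha, b, hb, m, hm, e⟩ := exists_mu R hα.neg hv hv1
  rw [neg_neg] at ha hb
  have hs' : ∀ y, rep cs h s y = y - cpr cs h y α • α := by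
    intro y
    rw [hs, cpr_neg_right cs h y hα]
    module
  refine ⟨a, ha, b, hb, m, e, ?_, ?_, ?_⟩
  · rw [R.conj_rp hm hα, hs', cpr_self cs h hα]
    congr 1
    module
  · rw [R.conj_rp hm hα.neg, hs', cpr_neg_left _ hα, cpr_self cs h hα]
    congr 1
    module
  · intro β hβ
    rw [R.conj_rp hm hβ, hs']

/-- the conjugates of `X α` under `⟨X α, X (-α)⟩` -/
def SS (X : (I → ℤ) → Subgroup Y) (α : I → ℤ) : Set (Subgroup Y) :=
  insert (X α) ((fun u => cj u (X (-α))) '' (X α : Set Y))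

omit R in
theorem self_mem_SS (α : I → ℤ) : X α ∈ SS X α := Set.mem_insert _ _

omit R in
theorem cj_mem_SS {α : I → ℤ} {u : Y} (hu : u ∈ X α) : cj u (X (-α)) ∈ SS X α :=
  Set.mem_insert_of_mem _ ⟨u, hu, rfl⟩

omit R in
theorem neg_mem_SS (α : I → ℤ) : X (-α) ∈ SS X α := by
  have := cj_mem_SS (X := X) (one_mem (X α))
  rwa [cj_one] at this

/-- `X (-α)` moves `X α` inside `SS` -/
theorem SS_low {α : I → ℤ} (hα : IsRoot cs h α) {v : Y} (hv : v ∈ X (-α)) : cj v (X α) ∈ SS X α := by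
  by_cases hv1 : v = 1
  · rw [hv1, cj_one]
    exact self_mem_SS α
  obtain ⟨a, ha, b, hb, m, e, h1, -, -⟩ := cj_mu R hα hv hv1
  have h2 : v = a⁻¹ * m * b⁻¹ := by rw [e]; group
  have h3 : cj v (X α) = cj a⁻¹ (X (-α)) := by
    rw [h2, cj_mul, cj_mul, cj_eq_of_mem (inv_mem hb), h1]
  rw [h3]
  exact cj_mem_SS (inv_mem ha)

theorem SS_low' {α : I → ℤ} (hα : IsRoot cs h α) {v u : Y} (hv : v ∈ X (-α)) (hu : u ∈ X α) :
    cj v (cj u (X (-α))) ∈ SS X α := by
  by_cases hu1 : u = 1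
  · rw [hu1, cj_one, cj_eq_of_mem hv]
    exact neg_mem_SS α
  have hα' := hα.neg
  obtain ⟨a, ha, b, hb, m, e, h1, -, -⟩ := cj_mu R hα' (v := u) (by rwa [neg_neg]) hu1
  rw [neg_neg] at h1
  have h2 : u = a⁻¹ * m * b⁻¹ := by rw [e]; group
  have h3 : cj u (X (-α)) = cj a⁻¹ (X α) := by
    rw [h2, cj_mul, cj_mul, cj_eq_of_mem (inv_mem hb), h1]
  rw [h3, ← cj_mul]
  exact SS_low R hα (mul_mem hv (inv_mem ha))

/-- the stabiliser of `SS` -/
def GS (X : (I → ℤ) → Subgroup Y) (α : I → ℤ) : Subgroup Y where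
  carrier := {g | (∀ P ∈ SS X α, cj g P ∈ SS X α) ∧ ∀ P ∈ SS X α, cj g⁻¹ P ∈ SS X α}
  one_mem' := ⟨fun P hP => by rwa [cj_one], fun P hP => by rwa [inv_one, cj_one]⟩
  mul_mem' := by
    rintro a b ⟨ha, ha'⟩ ⟨hb, hb'⟩
    refine ⟨fun P hP => ?_, fun P hP => ?_⟩
    · rw [cj_mul]
      exact ha _ (hb _ hP)
    · rw [mul_inv_rev, cj_mul]
      exact hb' _ (ha' _ hP)
  inv_mem' := by
    rintro a ⟨ha, ha'⟩
    exact ⟨ha', fun P hP => by rw [inv_inv]; exact ha _ hP⟩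

omit R in
theorem GS_of {α : I → ℤ} {H : Subgroup Y} (hH : ∀ g ∈ H, ∀ P ∈ SS X α, cj g P ∈ SS X α) : H ≤ GS X α :=
  fun g hg => ⟨hH g hg, hH _ (inv_mem hg)⟩

theorem X_le_GS {α : I → ℤ} (hα : IsRoot cs h α) : X α ≤ GS X α := by
  refine GS_of fun g hg P hP => ?_
  rcases hP with rfl | ⟨u, hu, rfl⟩
  · rw [cj_eq_of_mem hg]
    exact self_mem_SS α
  · show cj g (cj u (X (-α))) ∈ _
    rw [← cj_mul]
    exact cj_mem_SS (mul_mem hg hu)

theorem Xn_le_GS {α : I → ℤ} (hα : IsRoot cs h α) : X (-α) ≤ GS X α := by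
  refine GS_of fun g hg P hP => ?_
  rcases hP with rfl | ⟨u, hu, rfl⟩
  · exact SS_low R hα hg
  · exact SS_low' R hα hg hu

omit R in
/-- elements commuting with `X α`, `X (-α)` -/
theorem GS_comm {α : I → ℤ} {g : Y} (h1 : ∀ u ∈ X α, g * u = u * g) (h2 : ∀ u ∈ X (-α), g * u = u * g) :
    g ∈ GS X α := by
  have key : ∀ g : Y, (∀ u ∈ X α, g * u = u * g) → (∀ u ∈ X (-α), g * u = u * g) → ∀ P ∈ SS X α, cj g P ∈ SS X α := by
    intro g h1 h2 P hP
    have e1 : ∀ H : Subgroup Y, (∀ u ∈ H, g * u = u * g) → cj g H = H := by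
      intro H hH
      ext x
      rw [mem_cj]
      constructor
      · intro hx
        have h3 := hH _ hx
        have h4 : g⁻¹ * x * g = x := by
          have : x * g = g⁻¹ * x * g * g := by
            rw [← h3]; group
          exact (mul_right_cancel this).symm
        rwa [h4] at hx
      · intro hx
        have h3 := hH _ hx
        have h4 : g⁻¹ * x * g = x := by
          rw [mul_assoc, ← h3]; group
        rwa [h4]
    rcases hP with rfl | ⟨u, hu, rfl⟩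
    · rw [e1 _ h1]
      exact self_mem_SS α
    · show cj g (cj u (X (-α))) ∈ _
      rw [← cj_mul, h1 u hu, cj_mul, e1 _ h2]
      exact cj_mem_SS hu
  refine ⟨key g h1 h2, key g⁻¹ ?_ ?_⟩
  · intro u hu
    have := h1 u hu
    calc g⁻¹ * u = g⁻¹ * (u * g) * g⁻¹ := by group
      _ = u * g⁻¹ := by rw [← this]; group
  · intro u hu
    have := h2 u hu
    calc g⁻¹ * u = g⁻¹ * (u * g) * g⁻¹ := by group
      _ = u * g⁻¹ := by rw [← this]; group

theorem GS_rp {α : I → ℤ} (hα : IsRoot cs h α) {w : W} {k : Y} (hk : Rp cs R.nsys w k)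
    (hw : rep cs h w α = α ∨ rep cs h w α = -α) : ∀ P ∈ SS X α, cj k P ∈ SS X α := by
  intro P hP
  rcases hw with hw | hw
  · rcases hP with rfl | ⟨u, hu, rfl⟩
    · rw [R.conj_rp hk hα, hw]
      exact self_mem_SS α
    · show cj k (cj u (X (-α))) ∈ _
      have h1 : k * u * k⁻¹ ∈ X α := by
        have := R.conj_mem hk hα hu
        rwa [hw] at this
      have h2 : k * u = (k * u * k⁻¹) * k := by group
      rw [← cj_mul, h2, cj_mul, R.conj_rp hk hα.neg, map_neg, hw]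
      exact cj_mem_SS h1
  · rcases hP with rfl | ⟨u, hu, rfl⟩
    · rw [R.conj_rp hk hα, hw]
      exact neg_mem_SS α
    · show cj k (cj u (X (-α))) ∈ _
      have h1 : k * u * k⁻¹ ∈ X (-α) := by
        have := R.conj_mem hk hα hu
        rwa [hw] at this
      have h2 : k * u = (k * u * k⁻¹) * k := by group
      rw [← cj_mul, h2, cj_mul, R.conj_rp hk hα.neg, map_neg, hw, neg_neg]
      exact SS_low R hα h1

theorem GS_of_rp {α : I → ℤ} (hα : IsRoot cs h α) {w : W} {k : Y} (hk : Rp cs R.nsys w k)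
    (hw : rep cs h w α = α ∨ rep cs h w α = -α) : k ∈ GS X α := by
  refine ⟨GS_rp R hα hk hw, GS_rp R hα hk.inv ?_⟩
  rcases hw with hw | hw
  · left
    nth_rewrite 1 [← hw]
    rw [rep_inv_apply]
  · right
    have h1 : α = -rep cs h w α := by rw [hw, neg_neg]
    nth_rewrite 1 [h1]
    rw [map_neg, rep_inv_apply]

end

section

variable [Finite W] [Finite Y] (R : RGD cs h p T n X) (hs : SL cs h)
  (hab : ∀ α, IsRoot cs h α → ∀ u ∈ X α, ∀ v ∈ X α, u * v = v * u) {q : ℕ}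
  (hcard : ∀ α, IsRoot cs h α → Nat.card (X α) = q) (hq : 3 ≤ q) (hodd : Odd q)

include R hs hab hcard hq hodd

omit hs hab hq in
theorem odd_orderOf {α : I → ℤ} (hα : IsRoot cs h α) {u : Y} (hu : u ∈ X α) : Odd (orderOf u) := by
  have h1 := Subgroup.orderOf_dvd_natCard (X α) hu
  rw [hcard α hα] at h1
  exact Odd.of_dvd_nat hodd h1

omit hs hab hq in
/-- `z` moves the elements of the root groups at odd distance -/
theorem odd_moves {α : I → ℤ} {z : Y} (hz : Inv2 cs h T X α z) {β : I → ℤ} (hβ : IsRoot cs h β)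
    (hc : psi hz.root β ≠ 0) {u : Y} (hu : u ∈ X β) (hzu : z * u = u * z) : u = 1 := by
  have h1 := hz.sgn.inv β hβ hc u hu
  rw [hzu, mul_inv_cancel_right] at h1
  have h2 : u * u = 1 := by
    nth_rewrite 1 [h1]
    exact inv_mul_cancel u
  have h3 := mem_of_sq (H := (⊥ : Subgroup Y)) (odd_orderOf R hcard hodd hβ hu) (by rw [h2]; exact one_mem _)
  exact Subgroup.mem_bot.1 h3

omit hab hq in
/-- the elements of `N` commuting with `z` fix `± α` -/
theorem rep_pm {α : I → ℤ} {z : Y} (hz : Inv2 cs h T X α z)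
    (hex : ∀ x, IsRoot cs h x → cpr cs h x α = 0 → ∃ γ, IsRoot cs h γ ∧ cpr cs h γ α = 0 ∧ cpr cs h γ x = 1)
    {w : W} {k : Y} (hk : Rp cs R.nsys w k) (hkz : k * z = z * k) :
    rep cs h w α = α ∨ rep cs h w α = -α := by
  have hα := hz.root
  have hx : IsRoot cs h (rep cs h w α) := hα.act w
  -- the characters agree
  have key : ∀ β, IsRoot cs h β → psi hα β = 0 → psi hα (rep cs h w β) = 0 := by
    intro β hβ hβ0
    by_contra hcon
    obtain ⟨u, hu, hu1⟩ : ∃ u ∈ X β, u ≠ 1 := by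
      by_contra hcon
      push Not at hcon
      exact X_ne_bot R hβ ((Subgroup.eq_bot_iff_forall _).2 hcon)
    have h1 := hz.sgn.fix β hβ hβ0 u hu
    have h2 := R.conj_mem hk hβ hu
    have h3 : z * (k * u * k⁻¹) = (k * u * k⁻¹) * z := by
      have hki : k⁻¹ * z = z * k⁻¹ := by
        calc k⁻¹ * z = k⁻¹ * (z * k) * k⁻¹ := by group
          _ = z * k⁻¹ := by rw [← hkz]; group
      calc z * (k * u * k⁻¹) = (z * k) * u * k⁻¹ := by group
        _ = k * (z * u) * k⁻¹ := by rw [← hkz]; group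
        _ = k * u * (z * k⁻¹) := by rw [h1]; group
        _ = _ := by rw [← hki]; group
    have h4 := odd_moves R hcard hodd hz (hβ.act w) hcon h2 h3
    apply hu1
    have h5 : u = k⁻¹ * (k * u * k⁻¹) * k := by group
    rw [h5, h4]; group
  have hc : ∀ γ, cpr cs h (rep cs h w γ) (rep cs h w α) = cpr cs h γ α := fun γ => cpr_rep cs h w γ hα
  rcases hs.cases hx hα with ⟨h1, -⟩ | ⟨h1, -⟩ | ⟨h1, h2, h3, h4⟩
  · exact Or.inl h1
  · exact Or.inr h1
  exfalso
  have h5 := key α hα (psi_two hα (cpr_self cs h hα))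
  have h6 : cpr cs h (rep cs h w α) α = 0 := by
    rw [psi_apply, ZMod.intCast_zmod_eq_zero_iff_dvd] at h5
    omega
  -- `w α` orthogonal to `α`
  have h7 : cpr cs h α (rep cs h w α) = 0 := by rw [← hs _ _ hx hα, h6]
  have h8 : cpr cs h (rep cs h w⁻¹ α) α = 0 := by
    have := hc (rep cs h w⁻¹ α)
    rw [rep_apply_inv] at this
    rw [← this, h7]
  -- a root `γ` with `⟨γ, w α⟩ = 0`, `⟨γ, α⟩ = 1`; `w⁻¹ γ`
  have hx' : IsRoot cs h (rep cs h w⁻¹ α) := hα.act _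
  obtain ⟨γ, hγ, hγ1, hγ2⟩ := hex _ hx' h8
  have h9 := key γ hγ (psi_zero hα hγ1)
  have h10 : cpr cs h (rep cs h w γ) α = 1 := by
    have := cpr_rep cs h w γ hx'
    rw [rep_apply_inv] at this
    rw [this, hγ2]
  exact psi_one hα h10 h9

omit hab hq in
/-- **`X α` has at most `q + 1` conjugates under `C(z)`** -/
theorem cent_orbit (hG : GG cs h T X = ⊤) {α : I → ℤ} {z : Y} (hz : Inv2 cs h T X α z)
    (hex : ∀ x, IsRoot cs h x → cpr cs h x α = 0 → ∃ γ, IsRoot cs h γ ∧ cpr cs h γ α = 0 ∧ cpr cs h γ x = 1) :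
    (Subgroup.normalizer (X α : Set Y)).relIndex (Subgroup.centralizer {z}) ≤ q + 1 := by
  have hα := hz.root
  -- the centraliser stabilises `SS`
  have hX : ∀ x, IsRoot cs h x → X x ⊓ Subgroup.centralizer {z} ≤ GS X α := by
    intro x hx u hu
    obtain ⟨hu1, hu2⟩ := Subgroup.mem_inf.1 hu
    rcases hs.cases hx hα with ⟨h1, -⟩ | ⟨h1, -⟩ | ⟨h1, h2, h3, h4⟩
    · rw [h1] at hu1
      exact X_le_GS R hα hu1
    · rw [h1] at hu1
      exact Xn_le_GS R hα hu1
    · have hzu : z * u = u * z := Subgroup.mem_centralizer_iff.1 hu2 z rfl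
      rcases eq_or_ne (cpr cs h x α) 0 with h5 | h5
      · refine GS_comm ?_ ?_
        · intro v hv
          exact comm_of_not_btwn R hx hα h1 h2 (fun y => hs.not_btwn hx hα h1 h5.ge y) hu1 hv
        · intro v hv
          exact comm_of_not_btwn R hx hα.neg h2 (by rwa [neg_neg]) (fun y => hs.not_btwn hx hα.neg h2
            (by rw [cpr_neg_right cs h x hα, h5, neg_zero]) y) hu1 hv
      · have h6 : psi hα x ≠ 0 := by
          rcases (by omega : cpr cs h x α = 1 ∨ cpr cs h x α = -1) with h7 | h7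
          · exact psi_one hα h7
          · exact psi_neg_one hα h7
        rw [odd_moves R hcard hodd hz hx h6 hu1 hzu]
        exact one_mem _
  have hC : Subgroup.centralizer {z} ≤ GS X α := by
    intro g hg
    obtain ⟨u, hu, w, k, hk, hkz, v, hv, rfl⟩ := Cfsg.Agent.Nodes.NormalForm.mem_centralizer R
      (S := {z}) (Set.singleton_subset_iff.2 hz.sgn.mem) (by rw [hG]; trivial) hg
    have hkz' : k * z = z * k := (Subgroup.mem_centralizer_iff.1 hkz z rfl).symm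
    have hSup : RGD.Sup (fun x => X x ⊓ Subgroup.centralizer {z}) (RGD.Pos cs h) ≤ GS X α :=
      RGD.Sup_le fun x hx => hX x hx.1
    exact mul_mem (mul_mem (hSup hu) (GS_of_rp R hα hk (rep_pm R hs hcard hodd hz hex hk hkz'))) (hSup hv)
  -- counting
  have hfin : (SS X α).Finite := ((X α : Set Y).toFinite.image _).insert _
  have hSS : (SS X α).ncard ≤ q + 1 := by
    have h1 := Set.ncard_insert_le (X α) ((fun u => cj u (X (-α))) '' (X α : Set Y))
    have h2 : ((fun u => cj u (X (-α))) '' (X α : Set Y)).ncard ≤ (X α : Set Y).ncard :=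
      Set.ncard_image_le (Set.toFinite _)
    have h3 : (X α : Set Y).ncard = q := by
      rw [← hcard α hα]; rfl
    unfold SS
    omega
  have : Finite (SS X α) := hfin
  rw [Subgroup.relIndex, Subgroup.index]
  refine le_trans ?_ (le_of_eq_of_le (Nat.card_coe_set_eq (SS X α)) hSS)
  let f : Subgroup.centralizer {z} ⧸ (Subgroup.normalizer (X α : Set Y)).subgroupOf (Subgroup.centralizer {z}) →
      SS X α := fun c => Quotient.liftOn' c (fun g => (⟨cj (g : Y) (X α), (hC g.2).1 _ (self_mem_SS α)⟩ : SS X α)) (by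
        intro g g' hgg
        rw [QuotientGroup.leftRel_apply, Subgroup.mem_subgroupOf] at hgg
        apply Subtype.ext
        show cj (g : Y) (X α) = cj (g' : Y) (X α)
        have h1 : ((g⁻¹ * g' : Subgroup.centralizer {z}) : Y) = (g : Y)⁻¹ * g' := rfl
        rw [h1, mem_normalizer_iff_cj] at hgg
        have h2 : (g' : Y) = g * ((g : Y)⁻¹ * g') := by group
        rw [h2, cj_mul, hgg])
  refine Nat.card_le_card_of_injective f ?_
  intro c c' hcc
  induction c using QuotientGroup.induction_on with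
  | H g =>
    induction c' using QuotientGroup.induction_on with
    | H g' =>
      have h3 : cj (g : Y) (X α) = cj (g' : Y) (X α) := congrArg Subtype.val hcc
      rw [QuotientGroup.eq, Subgroup.mem_subgroupOf]
      have h1 : ((g⁻¹ * g' : Subgroup.centralizer {z}) : Y) = (g : Y)⁻¹ * g' := rfl
      rw [h1, mem_normalizer_iff_cj, cj_mul, ← h3, cj_inv_cj]

omit hs hab hcard hq hodd in
/-- the nontrivial elements of `X (-α)` do not normalise `X α` -/
theorem low_not_norm {α : I → ℤ} (hα : IsRoot cs h α) {v : Y} (hv : v ∈ X (-α))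
    (hn : v ∈ Subgroup.normalizer (X α : Set Y)) : v = 1 := by
  by_contra hv1
  obtain ⟨a, ha, b, hb, m, e, h1, -, -⟩ := cj_mu R hα hv hv1
  have h2 : m ∈ Subgroup.normalizer (X α : Set Y) := by
    rw [e]; exact mul_mem (mul_mem (Subgroup.le_normalizer ha) hn) (Subgroup.le_normalizer hb)
  rw [mem_normalizer_iff_cj, h1] at h2
  have h3 := X_injective R hα.neg hα h2
  apply hα.ne_zero
  funext i
  have h4 := congrFun h3 i
  rw [Pi.neg_apply] at h4
  show α i = 0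
  omega

omit R hab hcard hq hodd in
/-- positive pairing with a dominant root -/
theorem pos_of_dom {α : I → ℤ} (hd : Dom A α) (hα : IsRoot cs h α) {β : I → ℤ} (hβ : IsRoot cs h β)
    (hc : 0 < cpr cs h β α) : 0 ≤ β := by
  have := Fintype.ofFinite W
  have h1 := two_form_cpr cs h β hα
  have h2 := form_pos cs h hα.ne_zero
  have h3 : 0 < form cs h β α := by
    have : 0 < cpr cs h β α * form cs h α α := mul_pos hc h2
    omega
  rcases hβ.pos_or_neg with h4 | h4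
  · exact h4
  · exfalso
    have h5 := form_nonneg_of_dom cs h hd (neg_nonneg.2 h4)
    rw [form_neg_right, form_comm] at h5
    omega

/-- the Heisenberg datum of `α` in `EC C` -/
theorem heis_EC {C : List (I → ℤ)} (hC : ∀ c ∈ C, IsRoot cs h c) {α : I → ℤ} (hα : α ∈ EC cs h C)
    (S : Finset (I → ℤ)) (hS : ∀ β, β ∈ S ↔ β ∈ EC cs h C ∧ cpr cs h β α = 1) :
    H203.IF.Heis (X α) X S (fun β => α - β) ∧ H203.IF.QQ (X α) X S ≤ RGD.Sup X (EC cs h C) ∧
      Nat.card (H203.IF.QQ (X α) X S) = q ^ (S.card + 1) := by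
  have H : H203.IF.Heis (X α) X S (fun β => α - β) := heis_root R hs hab hα.1 S
    (fun β hβ => ⟨((hS β).1 hβ).1.1, ((hS β).1 hβ).2⟩) (fun β hβ => by
      obtain ⟨⟨h1, h2⟩, h3⟩ := (hS β).1 hβ
      rw [hS]
      have e : α - β = α + (-1 : ℤ) • β := by rw [neg_one_smul, sub_eq_add_neg]
      refine ⟨⟨isRoot_sub hα.1 h1 (by rw [hs α β hα.1 h1, h3]), fun c hc => ?_⟩, ?_⟩
      · rw [e, cpr_add cs h _ _ (hC c hc), cpr_smul cs h _ _ (hC c hc), hα.2 c hc, h2 c hc]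
        norm_num
      · rw [e, cpr_add cs h _ _ hα.1, cpr_smul cs h _ _ hα.1, cpr_self cs h hα.1, h3]
        norm_num)
  refine ⟨H, H203.IF.Heis.QQ_le (RGD.le_Sup hα) fun β hβ => RGD.le_Sup ((hS β).1 hβ).1, ?_⟩
  exact card_QQ' H (X_ne_bot R hα.1) (hcard α hα.1) (fun β hβ => hcard β ((hS β).1 hβ).1.1)

omit hab hcard hq hodd in
/-- opposite unipotent groups meet trivially -/
theorem disj {α : I → ℤ} (hα : IsRoot cs h α) {g : Y} (h1 : g ∈ RGD.Sup X {β | IsRoot cs h β ∧ 0 < cpr cs h β α})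
    (h2 : g ∈ RGD.Sup X {β | IsRoot cs h β ∧ cpr cs h β α < 0}) : g = 1 := by
  obtain ⟨w, hw⟩ := Cfsg.Agent.Nodes.Comb.exists_dom_rep cs h α
  obtain ⟨k, hk⟩ := exists_rp cs R.nsys w
  have hα' : IsRoot cs h (rep cs h w α) := hα.act w
  have h3 : k * g * k⁻¹ ∈ RGD.Sup X (RGD.Pos cs h) := by
    have h4 : cj k (RGD.Sup X {β | IsRoot cs h β ∧ 0 < cpr cs h β α}) ≤ RGD.Sup X (RGD.Pos cs h) := by
      refine cj_Sup_le R hk (fun x hx => hx.1) fun x hx => ?_
      refine ⟨hx.1.act w, pos_of_dom hs hw hα' (hx.1.act w) ?_⟩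
      rw [cpr_rep cs h w x hα]
      exact hx.2
    exact h4 ⟨g, h1, rfl⟩
  have h5 : k * g * k⁻¹ ∈ UN cs h X := by
    have h4 : cj k (RGD.Sup X {β | IsRoot cs h β ∧ cpr cs h β α < 0}) ≤ RGD.Sup X (Neg cs h) := by
      refine cj_Sup_le R hk (fun x hx => hx.1) fun x hx => ?_
      refine ⟨hx.1.act w, ?_⟩
      have h6 := pos_of_dom hs hw hα' (hx.1.act w).neg (by
        rw [cpr_neg_left _ hα', cpr_rep cs h w x hα]
        have := hx.2
        omega)
      exact neg_nonneg.1 h6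
    exact h4 ⟨g, h2, rfl⟩
  have h6 : k * g * k⁻¹ ∈ RGD.Sup X (RGD.Pos cs h) ⊓ UN cs h X := Subgroup.mem_inf.2 ⟨h3, h5⟩
  rw [U_inf_UN R, Subgroup.mem_bot] at h6
  have h7 : g = k⁻¹ * (k * g * k⁻¹) * k := by group
  rw [h7, h6]
  group

/-- `N(X α) ∩ Q_{-α} = 1` -/
theorem norm_inf' {α : I → ℤ} {z : Y} (hz : Inv2 cs h T X α z) {C : List (I → ℤ)}
    (hC : ∀ c ∈ C, IsRoot cs h c) (hαC : α ∈ EC cs h C) (S₁ S₂ : Finset (I → ℤ))
    (hS₁ : ∀ β, β ∈ S₁ ↔ β ∈ EC cs h C ∧ cpr cs h β α = 1)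
    (hS₂ : ∀ β, β ∈ S₂ ↔ β ∈ EC cs h C ∧ cpr cs h β (-α) = 1) {g : Y} (hg : g ∈ H203.IF.QQ (X (-α)) X S₂)
    (hn : g ∈ Subgroup.normalizer (X α : Set Y)) : g = 1 := by
  have hα := hz.root
  have hαn : -α ∈ EC cs h C := ⟨hα.neg, fun c hc => by rw [cpr_neg_left _ (hC c hc), hαC.2 c hc, neg_zero]⟩
  obtain ⟨H₂, -, hk₂⟩ := heis_EC R hs hab hcard hq hodd hC hαn S₂ hS₂
  have hzα := hz.sgn.fix α hα (psi_two hα (cpr_self cs h hα))
  have hzN : z ∈ Subgroup.normalizer (X α : Set Y) := by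
    apply Subgroup.centralizer_le_normalizer
    rw [Subgroup.mem_centralizer_iff]
    exact fun u hu => (hzα u hu).symm
  -- `z` inverts `g`
  have h1 := inv_mod (Inv2.neg hz) H₂ (fun β hβ => ⟨((hS₂ β).1 hβ).1.1, ((hS₂ β).1 hβ).2⟩) hg
  have h2 : z * g * z⁻¹ * g = 1 := low_not_norm R hα h1 (mul_mem (mul_mem (mul_mem hzN hn) (inv_mem hzN)) hn)
  have h3 : z * g * z⁻¹ = g⁻¹ := mul_eq_one_iff_eq_inv.1 h2
  -- `g * g` centralises `X α`
  have hodd' : Odd (orderOf g) := by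
    have h4 := Subgroup.orderOf_dvd_natCard _ hg
    rw [hk₂] at h4
    exact Odd.of_dvd_nat hodd.pow h4
  have h4 : g ∈ Subgroup.centralizer (X α : Set Y) := by
    refine mem_of_sq hodd' ?_
    rw [Subgroup.mem_centralizer_iff]
    intro u hu
    have h5 : g * u * g⁻¹ ∈ X α := (Subgroup.mem_normalizer_iff.1 hn u).1 hu
    have h6 := hzα _ h5
    have h7 := hzα _ hu
    have h8 : g * u * g⁻¹ = g⁻¹ * u * g := by
      calc g * u * g⁻¹ = (g * u * g⁻¹) * z * z⁻¹ := by group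
        _ = z * (g * u * g⁻¹) * z⁻¹ := by rw [h6]
        _ = (z * g * z⁻¹) * (z * u * z⁻¹) * (z * g * z⁻¹)⁻¹ := by group
        _ = g⁻¹ * u * g := by rw [h3, h7, mul_inv_cancel_right, inv_inv]
    calc u * (g * g) = g * (g⁻¹ * u * g) * g := by group
      _ = g * (g * u * g⁻¹) * g := by rw [h8]
      _ = g * g * u := by group
  rw [Subgroup.mem_centralizer_iff] at h4
  -- a reflection
  obtain ⟨v, hv, hv1⟩ : ∃ v ∈ X (-α), v ≠ 1 := by
    by_contra hcon
    push Not at hcon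
    exact X_ne_bot R hα.neg ((Subgroup.eq_bot_iff_forall _).2 hcon)
  obtain ⟨a, ha, b, hb, m, e, hm1, hm2, hm3⟩ := cj_mu R hα hv hv1
  have h5 : m * g = g * m := by
    have e1 := h4 a ha
    have e2 := h4 b hb
    have e3 := H₂.zQ hv hg
    rw [e]
    calc a * v * b * g = a * v * (b * g) := by group
      _ = a * (v * g) * b := by rw [e2]; group
      _ = (a * g) * v * b := by rw [e3]; group
      _ = g * (a * v * b) := by rw [e1]; group
  have h6 : g ∈ RGD.Sup X (insert α (S₁ : Set (I → ℤ))) := by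
    have h7 : cj m (RGD.Sup X (insert (-α) (S₂ : Set (I → ℤ)))) ≤ RGD.Sup X (insert α (S₁ : Set (I → ℤ))) := by
      rw [RGD.cj_Sup]
      refine iSup_le ?_
      rintro ⟨y, hy⟩
      show cj m (X y) ≤ _
      rcases hy with rfl | hy
      · rw [hm2]
        exact RGD.le_Sup (Set.mem_insert _ _)
      · obtain ⟨⟨h8, h9⟩, h10⟩ := (hS₂ y).1 (Finset.mem_coe.1 hy)
        rw [hm3 y h8]
        refine RGD.le_Sup (Set.mem_insert_of_mem _ (Finset.mem_coe.2 ((hS₁ _).2 ?_)))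
        have h11 : cpr cs h y α = -1 := by
          rw [cpr_neg_right cs h y hα] at h10
          omega
        have e4 : y - cpr cs h y α • α = y + α := by rw [h11]; module
        rw [e4]
        refine ⟨⟨isRoot_add h8 hα h11, fun c hc => ?_⟩, ?_⟩
        · rw [cpr_add cs h _ _ (hC c hc), h9 c hc, hαC.2 c hc, add_zero]
        · rw [cpr_add cs h _ _ hα, h11, cpr_self cs h hα]
          norm_num
    have h8 : m * g * m⁻¹ ∈ cj m (RGD.Sup X (insert (-α) (S₂ : Set (I → ℤ)))) := by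
      rw [QQ_eq] at hg
      exact ⟨g, hg, rfl⟩
    have h9 := h7 h8
    rwa [h5, mul_inv_cancel_right] at h9
  -- `U ∩ U⁻ = 1`
  rw [QQ_eq] at hg
  refine disj R hs hα (RGD.Sup_mono ?_ h6) (RGD.Sup_mono ?_ hg)
  · rintro y (rfl | hy)
    · exact ⟨hα, by rw [cpr_self cs h hα]; norm_num⟩
    · obtain ⟨⟨h8, -⟩, h10⟩ := (hS₁ y).1 (Finset.mem_coe.1 hy)
      exact ⟨h8, by rw [h10]; norm_num⟩
  · rintro y (rfl | hy)
    · exact ⟨hα.neg, by rw [cpr_neg_left _ hα, cpr_self cs h hα]; norm_num⟩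
    · obtain ⟨⟨h8, -⟩, h10⟩ := (hS₂ y).1 (Finset.mem_coe.1 hy)
      refine ⟨h8, ?_⟩
      rw [cpr_neg_right cs h y hα] at h10
      omega

/-- `N(X α) ∩ Q_{-α} = 1` -/
theorem norm_inf {α : I → ℤ} (_hd : Dom A α) {z : Y} (hz : Inv2 cs h T X α z) {C : List (I → ℤ)}
    (hC : ∀ c ∈ C, IsRoot cs h c) (hαC : α ∈ EC cs h C) (S₁ S₂ : Finset (I → ℤ))
    (hS₁ : ∀ β, β ∈ S₁ ↔ β ∈ EC cs h C ∧ cpr cs h β α = 1)
    (hS₂ : ∀ β, β ∈ S₂ ↔ β ∈ EC cs h C ∧ cpr cs h β (-α) = 1) {g : Y} (hg : g ∈ H203.IF.QQ (X (-α)) X S₂)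
    (hn : g ∈ Subgroup.normalizer (X α : Set Y)) : g = 1 :=
  norm_inf' R hs hab hcard hq hodd hz hC hαC S₁ S₂ hS₁ hS₂ hg hn

/-- **the number of conjugates** -/
theorem c_bound (hG : GG cs h T X = ⊤) {α : I → ℤ} (hd : Dom A α) {z : Y} (hz : Inv2 cs h T X α z)
    (hex : ∀ x, IsRoot cs h x → cpr cs h x α = 0 → ∃ γ, IsRoot cs h γ ∧ cpr cs h γ α = 0 ∧ cpr cs h γ x = 1)
    {C : List (I → ℤ)} (hC : ∀ c ∈ C, IsRoot cs h c) (hαC : α ∈ EC cs h C) (S₁ S₂ : Finset (I → ℤ))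
    (hS₁ : ∀ β, β ∈ S₁ ↔ β ∈ EC cs h C ∧ cpr cs h β α = 1)
    (hS₂ : ∀ β, β ∈ S₂ ↔ β ∈ EC cs h C ∧ cpr cs h β (-α) = 1) {d : ℕ} (hc₁ : S₁.card = 2 * d) (hc₂ : S₂.card = 2 * d)
    {D : Subgroup Y} (hD : RGD.Sup X (EC cs h C) ≤ D) :
    q ^ (4 * d + 1) ≤ (Subgroup.centralizer {z}).relIndex D * (q + 1) := by
  have hα := hz.root
  have hαn : -α ∈ EC cs h C := ⟨hα.neg, fun c hc => by rw [cpr_neg_left _ (hC c hc), hαC.2 c hc, neg_zero]⟩
  obtain ⟨H₁, hL₁, hk₁⟩ := heis_EC R hs hab hcard hq hodd hC hαC S₁ hS₁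
  obtain ⟨H₂, hL₂, hk₂⟩ := heis_EC R hs hab hcard hq hodd hC hαn S₂ hS₂
  set L := RGD.Sup X (EC cs h C) with hL
  set N := Subgroup.normalizer (X α : Set Y) with hN
  set Z := Subgroup.centralizer ({z} : Set Y) with hZ
  have e1 : Z.relIndex (N ⊓ L) * N.relIndex L = N.relIndex (Z ⊓ L) * Z.relIndex L := by
    rw [Subgroup.relIndex_inf_mul_relIndex, Subgroup.relIndex_inf_mul_relIndex, inf_comm]
  have h1 : q ^ (2 * d + 1) ≤ N.relIndex L := by
    refine le_trans ?_ (Subgroup.relIndex_le_of_le_right hL₂ (H203.IF.rel_ne _ _))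
    have h2 : N ⊓ H203.IF.QQ (X (-α)) X S₂ = ⊥ := by
      rw [Subgroup.eq_bot_iff_forall]
      intro g hg
      obtain ⟨hg1, hg2⟩ := Subgroup.mem_inf.1 hg
      exact norm_inf R hs hab hcard hq hodd hd hz hC hαC S₁ S₂ hS₁ hS₂ hg2 hg1
    rw [← Subgroup.inf_relIndex_right, h2, Subgroup.relIndex_bot_left, hk₂, hc₂]
  have h2 : q ^ (2 * d) ≤ Z.relIndex (N ⊓ L) := by
    have hQN : H203.IF.QQ (X α) X S₁ ≤ N ⊓ L := by
      refine le_inf ?_ hL₁
      intro g hg
      apply Subgroup.centralizer_le_normalizer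
      rw [Subgroup.mem_centralizer_iff]
      exact fun u hu => H₁.zQ hu hg
    refine le_trans ?_ (Subgroup.relIndex_le_of_le_right hQN (H203.IF.rel_ne _ _))
    have h3 : Z ⊓ H203.IF.QQ (X α) X S₁ ≤ X α := by
      intro g hg
      obtain ⟨hg1, hg2⟩ := Subgroup.mem_inf.1 hg
      have h4 := inv_mod hz H₁ (fun β hβ => ⟨((hS₁ β).1 hβ).1.1, ((hS₁ β).1 hβ).2⟩) hg2
      have h5 : z * g = g * z := Subgroup.mem_centralizer_iff.1 hg1 z rfl
      rw [h5, mul_inv_cancel_right] at h4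
      refine mem_of_sq ?_ h4
      have h6 := Subgroup.orderOf_dvd_natCard _ hg2
      rw [hk₁] at h6
      exact Odd.of_dvd_nat hodd.pow h6
    rw [← Subgroup.inf_relIndex_right]
    have h4 := H203.IF.card_rel (inf_le_right : Z ⊓ H203.IF.QQ (X α) X S₁ ≤ H203.IF.QQ (X α) X S₁)
    rw [hk₁, hc₁] at h4
    have h5 : Nat.card (Z ⊓ H203.IF.QQ (X α) X S₁ : Subgroup Y) ≤ q := by
      rw [← hcard α hα]
      exact Subgroup.card_le_of_le h3
    by_contra hcon
    push Not at hcon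
    have h6 : Nat.card (Z ⊓ H203.IF.QQ (X α) X S₁ : Subgroup Y) *
        (Z ⊓ H203.IF.QQ (X α) X S₁).relIndex (H203.IF.QQ (X α) X S₁) < q * q ^ (2 * d) := by
      refine lt_of_le_of_lt (Nat.mul_le_mul_right _ h5) ?_
      exact Nat.mul_lt_mul_of_pos_left hcon (by omega)
    rw [h4, pow_succ, mul_comm] at h6
    exact lt_irrefl _ h6
  have h3 : N.relIndex (Z ⊓ L) ≤ q + 1 := by
    refine le_trans (Subgroup.relIndex_le_of_le_right inf_le_left (H203.IF.rel_ne _ _)) ?_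
    exact cent_orbit R hs hcard hodd hG hz hex
  calc q ^ (4 * d + 1) = q ^ (2 * d) * q ^ (2 * d + 1) := by ring
    _ ≤ Z.relIndex (N ⊓ L) * N.relIndex L := Nat.mul_le_mul h2 h1
    _ = N.relIndex (Z ⊓ L) * Z.relIndex L := e1
    _ ≤ (q + 1) * Z.relIndex D :=
      Nat.mul_le_mul h3 (Subgroup.relIndex_le_of_le_right hD (H203.IF.rel_ne _ _))
    _ = _ := mul_comm _ _

end

end Cfsg.Agent.H176.IFe
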