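import Cfsg.Agent.H897.IF.SevenEnd
import Cfsg.Agent.H496.IF.NFour
import Cfsg.Agent.H190.IF.ESeven
import Cfsg.Agent.H557.LrE7

/-!
# S5719, `E₇(q)`, `q` odd (helper176)

* `nontor7` : the involutions permuting the root groups as `th7` and centralising the root groups of the frame;
* `reduce` : every involution is conjugate to an element of the torus or to one as in `nontor7`;
* `e7_odd` : **the cell `e7_odd`**.
-/

set_option autoImplicit false
set_option linter.unusedSectionVars false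
set_option maxHeartbeats 400000

namespace Cfsg.Agent.H176.IFS

open CoxeterSystem Cfsg.Agent.ChevalleyStructure.CoxeterGeom Cfsg.Agent.Tits.Roots Cfsg.Agent.Tits.Core
  Cfsg.Agent.Tits.RootComb Cfsg.Agent.Nodes.Reps Cfsg.Agent.Nodes.BNOf
  Cfsg.Agent.Nodes.RGDLib Cfsg.Agent.Nodes.Bruhat Cfsg.Agent.Nodes.Coroot Cfsg.Agent.KFacts.RgdSL
open Cfsg.Lie Cfsg.Agent.ChevalleyStructure Cfsg.Agent.ChevalleyStructure.CoxeterGeomTypes
  Cfsg.Agent.Nodes.RGDChev
open Cfsg.Agent.KFacts.RgdChevCoord (TT XX nc)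
open Cfsg.Agent.H557.LrAbs Cfsg.Agent.H557.LrSgn Cfsg.Agent.H557.LrTor Cfsg.Agent.H557.LrOrb Cfsg.Agent.H557.LrIso
  Cfsg.Agent.H557.LrNF Cfsg.Agent.H557.LrMov Cfsg.Agent.H557.LrChev Cfsg.Agent.H557.LrRho Cfsg.Agent.H557.LrNon
  Cfsg.Agent.H557.LrData Cfsg.Agent.H557.LrFam
open Cfsg.Agent.H557.LrE7 (bb ap am tab_bb tab_cn tab_cn0 tab_om tab_w th7_comm AE)
open Cfsg.Agent.H974.Exc (sym_E7 J_E7 fix_of_id wJ_E7 th7 pr7 sl_E7 cf isRoot_of cpr_of)
open Cfsg.Agent.UGT.U2.FOne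
open Cfsg.Agent.H190.IF (Inv2 EC Fix_bound exists_inv2)

set_option backward.isDefEq.respectTransparency false

section Sizes

variable {K : Type} [Field K] [Fintype K]

theorem two_ne (p : ℕ) [Fact p.Prime] [CharP K p] (ho : Odd (Nat.card K)) : (2 : K) ≠ 0 := by
  intro h4
  have h5 : ringChar K ∣ 2 := (ringChar.spec K 2).1 (by exact_mod_cast h4)
  have h6 : ringChar K = p := ringChar.eq_iff.2 inferInstance
  rw [h6, Nat.prime_dvd_prime_iff_eq (Fact.out : p.Prime) Nat.prime_two] at h5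
  obtain ⟨f, hf, e⟩ := FiniteField.card K p
  rw [← Nat.card_eq_fintype_card, h5] at e
  rw [e] at ho
  exact (Nat.not_odd_iff_even.2 ((Nat.even_pow.2 ⟨even_two, f.pos.ne'⟩))) ho

omit [Fintype K] in
theorem three_le [Finite K] (ho : Odd (Nat.card K)) : 3 ≤ Nat.card K := by
  have h1 : 1 < Nat.card K := Finite.one_lt_card
  obtain ⟨k, hk⟩ := ho
  omega

omit [Fintype K] in
theorem exists_na [Finite K] : ∃ a b : ↥(chevE7.group K), a * b ≠ b * a := by
  have hS : IsSimpleGroup ↥(chevE7.group K) ∧ ¬ IsMulCommutative ↥(chevE7.group K) := S1054.result _ (by simp)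
  by_contra hcon
  push Not at hcon
  exact hS.2 ⟨⟨hcon⟩⟩

/-- `|E₇(q)| ≤ q¹³³` -/
theorem card_le7 : Nat.card ↥(chevE7.group K) ≤ Nat.card K ^ 133 := by
  have h1 := H897.IF.num_E7 (K := K)
  have h2 := S1035.result (F := K) rfl (chevE7, Nat.gcd 2 (Fintype.card K - 1)) (by simp)
  have h3 : Nat.card (TT chevE7 K) ≤ (Nat.card K - 1) ^ 7 := by
    rw [H897.IF.card_TT (by simp), Nat.card_eq_fintype_card (α := K)]
    have h4 : Nat.gcd 2 (Fintype.card K - 1) * Nat.card (chevE7.diagonalSubgroup K) = (Fintype.card K - 1) ^ 7 := h2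
    rw [← h4]
    exact Nat.le_mul_of_pos_left _ (Nat.gcd_pos_of_pos_left _ (by norm_num))
  have h4 : 1 < Nat.card K := Finite.one_lt_card
  refine Nat.le_of_mul_le_mul_right ?_ (pow_pos (by omega : 0 < Nat.card K - 1) 7)
  calc _ ≤ Nat.card (TT chevE7 K) * Nat.card K ^ 133 := h1
    _ ≤ (Nat.card K - 1) ^ 7 * Nat.card K ^ 133 := Nat.mul_le_mul_right _ h3
    _ = _ := mul_comm _ _

end Sizes

variable {W : Type*} [Group W] [Finite W] (cs : CoxeterSystem CoxeterMatrix.E₇ W)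
  {K : Type} [Field K] [Fintype K] (p : ℕ) [Fact p.Prime] [CharP K p]

include p in
/-- **the non-toral involutions** -/
theorem nontor7 (ho : Odd (Nat.card K)) {z : ↥(chevE7.group K)} {θ : Fin 7 → ℤ}
    (hz : Inv2 cs isType_E7.isCartan (TT chevE7 K) (XX chevE7 7 K) θ z) {A : Subgroup ↥(chevE7.group K)}
    (hA : H255.IFK.Fix A) {t : ↥(chevE7.group K)} (htA : t ∈ A) (htt : t * t = 1) (h1 : t ≠ 1) {w : W}
    (hw : ∀ v, rep cs isType_E7.isCartan w v = th7 v)
    (hθ : ∀ c, IsRoot cs isType_E7.isCartan c →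
      cj t (XX chevE7 7 K c) = XX chevE7 7 K (rep cs isType_E7.isCartan w c))
    (hcn : ∀ i, Cn t (XX chevE7 7 K) (bb i) ∧ Cn t (XX chevE7 7 K) (-bb i)) : ∃ y ∈ A, IsConj z y := by
  have h3 := three_le ho
  have hS : IsSimpleGroup ↥(chevE7.group K) ∧ ¬ IsMulCommutative ↥(chevE7.group K) := S1054.result _ (by simp)
  have := hS.1
  have hna := exists_na (K := K)
  have h2 := two_ne p ho
  have R := rgd (K := K) isType_E7 cs p
  have hG1 := G1_eq_top (K := K) isType_E7 cs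
  by_contra hcon
  push Not at hcon
  obtain ⟨k1, k2⟩ := H496.NFour.e7_four R (fun α hα => H897.IF.XX_comm isType_E7 cs hα)
    (fun α hα => H897.IF.card_XX isType_E7 cs hα) h3 ho htt hw hθ hcn (fun i => H897.IF.hsim isType_E7 cs h2 i)
    (fun α z hz => H176.IFe.inv2_sq hna hG1 hz) (B := A) (fun α z' hz' y hy hzy => by
      have h4 := H176.IFe.inv2_conj hna R hG1 (fun a b ha hb => H897.IF.trans7 isType_E7 cs ha hb) hz hz'
      exact hcon y hy (h4.trans hzy))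
  have hord : orderOf t = 2 := orderOf_eq_prime (by rw [pow_two]; exact htt) h1
  obtain ⟨f, hf1, hf2⟩ := Fix_bound hA htA hord
  have h5 := hf1 _ (le_refl _)
  have h6 := (Subgroup.centralizer ({t} : Set ↥(chevE7.group K))).index_mul_card
  have h7 := card_le7 (K := K)
  set q := Nat.card K with hq
  set N := (Subgroup.centralizer ({t} : Set ↥(chevE7.group K))).index with hN
  have h8 : N * q ^ 56 ≤ q ^ 77 * q ^ 56 := by
    calc N * q ^ 56 ≤ N * Nat.card (Subgroup.centralizer ({t} : Set ↥(chevE7.group K))) := Nat.mul_le_mul_left _ k2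
      _ = Nat.card ↥(chevE7.group K) := h6
      _ ≤ q ^ 133 := h7
      _ = _ := by rw [← pow_add]
  have h9 : N ≤ q ^ 77 := Nat.le_of_mul_le_mul_right h8 (pow_pos (by omega) _)
  have h10 : q ^ 80 ≤ f ^ 5 := by
    calc q ^ 80 = (q ^ 16) ^ 5 := by rw [← pow_mul]
      _ ≤ f ^ 5 := Nat.pow_le_pow_left (k1.trans h5) 5
  have h11 : q ^ 77 ≤ q ^ 80 := Nat.pow_le_pow_right (by omega) (by norm_num)
  omega

include p in
/-- the root groups of the frame are centralised (copied from `H557.LrE7.nontoral`) -/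
theorem hcn_of {t : ↥(chevE7.group K)} (htt : t * t = 1)
    {w : W} (hw : ∀ v, rep cs isType_E7.isCartan w v = th7 v)
    (hθ : ∀ c, IsRoot cs isType_E7.isCartan c →
      cj t (XX chevE7 7 K c) = XX chevE7 7 K (rep cs isType_E7.isCartan w c))
    (h0 : Cn t (XX chevE7 7 K) (bb 0)) : ∀ i, Cn t (XX chevE7 7 K) (bb i) ∧ Cn t (XX chevE7 7 K) (-bb i) := by
  have R := rgd (K := K) isType_E7 cs p
  have hs := sl_E7 cs
  have hb : ∀ i, IsRoot cs isType_E7.isCartan (bb i) := fun i => isRoot_of isType_E7 cs (tab_bb i).1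
  have hcp : ∀ {x y : Fin 7 → ℤ} {c : ℤ}, IsRoot cs isType_E7.isCartan y → cf AE x y = c →
      cpr cs isType_E7.isCartan x y = c := fun {x y c} hy h => cpr_of isType_E7 hs x hy h
  -- the root groups of the frame are centralised
  have hstep : ∀ {a c d : Fin 7 → ℤ}, IsRoot cs isType_E7.isCartan a → IsRoot cs isType_E7.isCartan c → th7 c = c →
      cf AE c a = 1 → cf AE a (th7 a) = 0 → a + th7 a = c - d → Cn t (XX chevE7 7 K) c → Cn t (XX chevE7 7 K) d := by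
    intro a c d ha hc hcθ h1 h3 h4 hcn
    have haθ := ha.act w
    rw [hw] at haθ
    have h5 := cn_step R hs htt hθ ha hc (by rw [hw, hcθ]) (by rw [hw]; exact hcp haθ h3) hcn
    rw [hw, hcp ha h1, one_smul, h4] at h5
    have : c - (c - d) = d := by abel
    rwa [this] at h5
  have key : ∀ i, i ≠ 0 → Cn t (XX chevE7 7 K) (bb i) ∧ Cn t (XX chevE7 7 K) (-bb i) := by
    intro i hi
    obtain ⟨k1, k2, k3, k4, k5, k6, k7, k8⟩ := tab_cn i hi
    refine ⟨?_, ?_⟩
    · exact hstep (isRoot_of isType_E7 cs k2) (hb 0) (tab_bb 0).2 k4 k8 k6 h0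
    · refine hstep (isRoot_of isType_E7 cs k1) (hb 0) (tab_bb 0).2 k3 k7 ?_ h0
      rw [k5, sub_neg_eq_add]
  intro i
  by_cases hi : i = 0
  · subst hi
    refine ⟨h0, ?_⟩
    obtain ⟨k1, k2, k3, k4, k5, k6, k7, k8⟩ := tab_cn 1 (by decide)
    refine hstep (isRoot_of isType_E7 cs k1) (hb 1) (tab_bb 1).2 tab_cn0.1 k7 ?_ (key 1 (by decide)).1
    rw [tab_cn0.2, sub_neg_eq_add, add_comm]
  · exact key i hi

include p in
/-- (copied from `H557.LrE7.nontoral'`) -/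
theorem exists_frame {t : ↥(chevE7.group K)} (htt : t * t = 1)
    {w : W} (hw : ∀ v, rep cs isType_E7.isCartan w v = th7 v)
    (hθ : ∀ c, IsRoot cs isType_E7.isCartan c →
      cj t (XX chevE7 7 K c) = XX chevE7 7 K (rep cs isType_E7.isCartan w c)) :
    ∃ g : ↥(chevE7.group K), (∀ c, IsRoot cs isType_E7.isCartan c →
      cj (g * t * g⁻¹) (XX chevE7 7 K c) = XX chevE7 7 K (rep cs isType_E7.isCartan w c)) ∧
      ∀ i, Cn (g * t * g⁻¹) (XX chevE7 7 K) (bb i) ∧ Cn (g * t * g⁻¹) (XX chevE7 7 K) (-bb i) := by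
  have R := rgd (K := K) isType_E7 cs p
  have hs := sl_E7 cs
  have hG1 := G1_eq_top (K := K) isType_E7 cs
  have hG := KFacts.RgdRigid.GG_eq_top (T := TT chevE7 K) hG1
  have hrp := rp_of_cj R hG hθ
  obtain ⟨k1, k2, k3, k4, k5⟩ := tab_w
  have r0 := isRoot_sr cs isType_E7.isCartan 0
  have r2 := isRoot_sr cs isType_E7.isCartan 2
  have h3 : (bb 0 : Fin 7 → ℤ) = sr 0 := (tab_om 0).1.symm
  -- conjugation
  have hconj : ∀ {g : ↥(chevE7.group K)} {v : W}, Rp cs R.nsys v g →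
      (∀ x, rep cs isType_E7.isCartan v (th7 x) = th7 (rep cs isType_E7.isCartan v x)) →
      ∀ {c : Fin 7 → ℤ}, IsRoot cs isType_E7.isCartan c → rep cs isType_E7.isCartan v c = sr 0 →
      Cn t (XX chevE7 7 K) c → ∃ g : ↥(chevE7.group K), (∀ c, IsRoot cs isType_E7.isCartan c →
      cj (g * t * g⁻¹) (XX chevE7 7 K c) = XX chevE7 7 K (rep cs isType_E7.isCartan w c)) ∧
      ∀ i, Cn (g * t * g⁻¹) (XX chevE7 7 K) (bb i) ∧ Cn (g * t * g⁻¹) (XX chevE7 7 K) (-bb i) := by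
    intro g v hg hv c hc hvc hcn
    obtain ⟨h4, h5⟩ := conj_step R hθ hg (fun x => by rw [hw, hw, hv]) hc hcn
    rw [hvc, ← h3] at h5
    refine ⟨g, h4, hcn_of cs p ?_ hw h4 h5⟩
    have : g * t * g⁻¹ * (g * t * g⁻¹) = g * (t * t) * g⁻¹ := by group
    rw [this, htt, mul_one, mul_inv_cancel]
  have hA : A2 cs isType_E7.isCartan (sr 0) (sr 2) := hs.a2 r0 r2 (cpr_of isType_E7 hs _ r2 k3)
  rcases cn_or_inv isType_E7 p cs hrp htt r0 (by rw [hw, k4]) with h4 | h4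
  · exact hconj (v := 1) rp_one (fun x => by rw [map_one, Module.End.one_apply, Module.End.one_apply]) r0
      (by rw [map_one, Module.End.one_apply]) h4
  rcases cn_or_inv isType_E7 p cs hrp htt r2 (by rw [hw, k5]) with h5 | h5
  · refine hconj ((rp_simple cs R.nsys 2).mul (rp_simple cs R.nsys 0)) (fun x => ?_) r2 ?_ h5
    · rw [rep_mul_apply, rep_mul_apply, th7_comm cs 0 (Or.inl rfl), th7_comm cs 2 (Or.inr rfl)]
    · rw [← k1, ← rep_word cs isType_E7.isCartan, wordProd_cons, wordProd_cons, wordProd_nil, mul_one]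
  · refine hconj (rp_simple cs R.nsys 2) (fun x => th7_comm cs 2 (Or.inr rfl) x) hA.rxy ?_ (cn_add_of_inv R hA h4 h5)
    have h6 := rep_word cs isType_E7.isCartan [2] (sr 0 + sr 2)
    rw [wordProd_cons, wordProd_nil, mul_one] at h6
    exact h6.trans k2

include p in
/-- **the involutions of `E₇(q)`, `q` odd** -/
theorem reduce (hp2 : Odd p) {t : ↥(chevE7.group K)} (htt : t * t = 1) (h1 : t ≠ 1) :
    (∃ k : ↥(chevE7.group K), k⁻¹ * t * k ∈ TT chevE7 K) ∨ ∃ g : ↥(chevE7.group K), ∃ w : W,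
      (∀ v, rep cs isType_E7.isCartan w v = th7 v) ∧ (∀ c, IsRoot cs isType_E7.isCartan c →
      cj (g * t * g⁻¹) (XX chevE7 7 K c) = XX chevE7 7 K (rep cs isType_E7.isCartan w c)) ∧
      ∀ i, Cn (g * t * g⁻¹) (XX chevE7 7 K) (bb i) ∧ Cn (g * t * g⁻¹) (XX chevE7 7 K) (-bb i) := by
  have hp2' : p ≠ 2 := by
    rintro rfl
    exact (by decide : ¬ Odd 2) hp2
  have hS : IsSimpleGroup ↥(Lie.chevE7.group K) ∧ ¬ IsMulCommutative ↥(Lie.chevE7.group K) := S1054.result _ (by simp)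
  have hs := hS.1
  have hZ := center_eq_bot hS
  have R := rgd (K := K) isType_E7 cs p
  have hG := G1_eq_top (K := K) isType_E7 cs
  have hGG := KFacts.RgdRigid.GG_eq_top (T := TT chevE7 K) hG
  obtain ⟨k, φ, σ, J, g, N⟩ := exists_nf_inner hp2' R hG hZ htt h1
  have hσ : ∀ i, σ i = i := by
    intro i
    exact sym_E7 ⟨σ, σ, N.σσ, N.σσ⟩ (fun i j => FFour.sigma_matrix N.φ_simple i j) i
  rcases J_E7 N hσ with hJ | hJ
  · exact Or.inl ⟨k, mem_T_of R hGG fun c hc => fix_of_id N.nx hσ hJ hc⟩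
  · right
    have hw := wJ_E7 cs N.Jcomm hJ
    have hsq : k⁻¹ * t * k * (k⁻¹ * t * k) = 1 := by
      have : k⁻¹ * t * k * (k⁻¹ * t * k) = k⁻¹ * (t * t) * k := by group
      rw [this, htt, mul_one, inv_mul_cancel]
    obtain ⟨g, hg1, hg2⟩ := exists_frame cs p (t := k⁻¹ * t * k) hsq hw fun c hc => by
      have h6 := N.nx.xX_id hσ hc
      exact h6
    have e : g * (k⁻¹ * t * k) * g⁻¹ = g * k⁻¹ * t * (g * k⁻¹)⁻¹ := by group
    rw [e] at hg1 hg2
    exact ⟨g * k⁻¹, _, hw, hg1, hg2⟩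

include p in
/-- **step 1** -/
theorem step1 (hp2 : Odd p) (ho : Odd (Nat.card K)) {z : ↥(chevE7.group K)}
    (hz : Inv2 cs isType_E7.isCartan (TT chevE7 K) (XX chevE7 7 K) H897.IF.th7 z) {A : Subgroup ↥(chevE7.group K)}
    (hA : H255.IFK.Fix A) {t : ↥(chevE7.group K)} (htA : t ∈ A) (ht2 : orderOf t = 2) : ∃ y ∈ A, IsConj z y := by
  have htt : t * t = 1 := by
    rw [← pow_two, ← ht2]
    exact pow_orderOf_eq_one t
  have h1 : t ≠ 1 := by
    rintro rfl
    rw [orderOf_one] at ht2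
    omega
  have hS : IsSimpleGroup ↥(chevE7.group K) ∧ ¬ IsMulCommutative ↥(chevE7.group K) := S1054.result _ (by simp)
  have := hS.1
  have hna := exists_na (K := K)
  have h2 := two_ne p ho
  have R := rgd (K := K) isType_E7 cs p
  have hG1 := G1_eq_top (K := K) isType_E7 cs
  rcases reduce cs p hp2 htt h1 with ⟨k, hk⟩ | ⟨g, w, hw, hg1, hg2⟩
  · obtain ⟨z', hz'⟩ := exists_inv2 R (fun i => H897.IF.hsim isType_E7 cs h2 i)
      ((H190.IF.Tab7.isRoot_iff' cs (H190.IF.Tab7.toV H190.IF.Tab7.th)).2 ⟨_, H190.IF.Tab7.th_mem, rfl⟩)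
    obtain ⟨y, hy, hzy⟩ := H190.IF.ESeven.toral (cs := cs) hp2
      (fun a b ha hb => H897.IF.trans7 isType_E7 cs ha hb) hz' hA htA htt h1 hk
    have h4 := H176.IFe.inv2_conj hna R hG1 (fun a b ha hb => H897.IF.trans7 isType_E7 cs ha hb) hz hz'
    exact ⟨y, hy, h4.trans hzy⟩
  · have hsq : g * t * g⁻¹ * (g * t * g⁻¹) = 1 := by
      have : g * t * g⁻¹ * (g * t * g⁻¹) = g * (t * t) * g⁻¹ := by group
      rw [this, htt, mul_one, mul_inv_cancel]
    obtain ⟨y, hy, hzy⟩ := nontor7 cs p ho hz (hA.conj g) (t := g * t * g⁻¹) (H255.IFK.conj_mem_conj htA) hsq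
      (fun h => h1 (by rwa [mul_inv_eq_one, mul_eq_left] at h)) hw hg1 hg2
    rw [H255.IFK.mem_conj] at hy
    exact ⟨_, hy, hzy.trans (isConj_iff.2 ⟨g⁻¹, by rw [inv_inv]⟩)⟩

/-- **S5719, `E₇(q)`, `q` odd** -/
theorem e7_odd : ∀ (F : Type) [Field F] [Fintype F], Odd (Fintype.card F) → IsSimpleGroup (chevE7.group F) →
    H209.Fxy.KillE (chevE7.group F) := by
  rintro F _ _ ho hs A Γ h ⟨t, htA, ht2⟩
  obtain ⟨p, hpp, hpc, hp2⟩ := exists_char F ho
  have : Fact p.Prime := ⟨hpp⟩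
  obtain ⟨cs, hcs⟩ : ∃ cs, cs = (CoxeterMatrix.E₇).toCoxeterSystem := ⟨_, rfl⟩
  have hW : Finite (CoxeterMatrix.E₇).Group := finite_W isType_E7 cs
  have ho' : Odd (Nat.card F) := by rwa [Nat.card_eq_fintype_card]
  obtain ⟨z, hz⟩ := exists_inv2 (rgd (K := F) isType_E7 cs p) (fun i => H897.IF.hsim isType_E7 cs (two_ne p ho') i)
    (H897.IF.root_th7 isType_E7 cs)
  exact H897.IF.fund7 isType_E7 cs p ho' hz h
    (step1 cs p hp2 ho' hz (H255.IFK.fix_of_IF h (exists_na (K := F))) htA ht2)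

end Cfsg.Agent.H176.IFS
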