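import Cfsg.Agent.H176.IF.Cnt
import Cfsg.Agent.H809.IF.EngC
import Cfsg.Agent.H680.IF.EngA
import Cfsg.Agent.H209.IF.Kill
import Cfsg.Agent.H557.LrOrb
import Cfsg.Agent.Nodes.ClsNorm

/-!
# S5719: the end game for simply laced groups, `q` odd (helper176)

`endgame` : `IF A Γ`, `A` contains a conjugate of a fundamental involution: contradiction (generic for simply laced
root group data, from counts of roots and two numerical inequalities).
-/

set_option autoImplicit false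
set_option linter.unusedSectionVars false

namespace Cfsg.Agent.H176.IFe

open CoxeterSystem Cfsg.Agent.ChevalleyStructure.CoxeterGeom Cfsg.Agent.Tits.Roots Cfsg.Agent.Tits.Core
  Cfsg.Agent.Tits.Exchange Cfsg.Agent.Nodes.Reps Cfsg.Agent.Nodes.BNOf Cfsg.Agent.Nodes.StabComb
  Cfsg.Agent.Nodes.Bruhat Cfsg.Agent.Nodes.OppDec Cfsg.Agent.Nodes.PosPair Cfsg.Agent.Nodes.Coroot
  Cfsg.Agent.Nodes.Unique Cfsg.Agent.KFacts.RgdSL Cfsg.Agent.H557.LrSgn Cfsg.Agent.H190.IF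
open Cfsg.Agent.H209.Fxy
open scoped commutatorElement

section fixity

variable {Y : Type*} [Group Y] [Finite Y] {A : Subgroup Y} {Γ : Subgroup (MulAut Y)}

theorem icl_conj {s t : Y} (hst : IsConj s t) : H999.IFB.icl (MulAut.conj s) = H999.IFB.icl (MulAut.conj t) := by
  obtain ⟨c, hc⟩ := isConj_iff.1 hst
  ext ρ
  constructor
  · rintro ⟨x, rfl⟩
    refine ⟨x * c⁻¹, ?_⟩
    rw [← hc]
    simp only [map_mul, map_inv]
    group
  · rintro ⟨x, rfl⟩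
    refine ⟨x * c, ?_⟩
    rw [← hc]
    simp only [map_mul, map_inv]
    group

theorem fx_conj (h : IF A Γ) {s t : Y} (hs : s ∈ A) (ht : t ∈ A) (hst : IsConj s t) :
    fx A (MulAut.conj s) = fx A (MulAut.conj t) := by
  have h1 := H999.IFB.IF.fix_formula' h ((h.conj s).2 hs)
  have h2 := H999.IFB.IF.fix_formula' h ((h.conj t).2 ht)
  rw [icl_conj hst] at h1
  have h3 : 0 < (H999.IFB.icl (MulAut.conj t)).ncard :=
    (Set.ncard_pos (Set.toFinite _)).2 ⟨MulAut.conj t, 1, by simp⟩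
  exact Nat.eq_of_mul_eq_mul_right h3 (h1.trans h2.symm)

theorem fx_cj (A : Subgroup Y) (g t : Y) : fx (cj g A) (MulAut.conj (g * t * g⁻¹)) = fx A (MulAut.conj t) := by
  have h1 := fx_map (A := A) (MulAut.conj g) (MulAut.conj t)
  have h2 : MulAut.congr (MulAut.conj g) (MulAut.conj t) = MulAut.conj (g * t * g⁻¹) := by
    ext x
    simp [MulAut.congr, mul_assoc]
  rw [h2] at h1
  exact h1

theorem IF_cj (h : IF A Γ) (g : Y) : ∃ Γ', IF (cj g A) Γ' := ⟨_, H209.Fxy.IF.map h (MulAut.conj g)⟩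

theorem rel_cj (g : Y) (H K : Subgroup Y) : (cj g H).relIndex (cj g K) = H.relIndex K :=
  Subgroup.relIndex_map_map_of_injective H K (MulAut.conj g).injective

theorem cj_cent (g t : Y) : cj g (Subgroup.centralizer ({t} : Set Y)) = Subgroup.centralizer {g * t * g⁻¹} :=
  Cfsg.Agent.H557.LrOrb.cent_map_conj t g

end fixity

variable {I W Y : Type*} [Fintype I] [DecidableEq I] [Group W] [Group Y] {M : CoxeterMatrix I}
  {cs : CoxeterSystem M W} {A : I → I → ℤ} {h : IsCartan M A} {p : ℕ} {T : Subgroup Y} {n : I → Y}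
  {X : (I → ℤ) → Subgroup Y}

section inv

variable [Finite W]

/-- elements centralising all root groups -/
theorem eq_one_of_central [Finite Y] [IsSimpleGroup Y] (hna : ∃ a b : Y, a * b ≠ b * a)
    (hG1 : RGD.Sup X {x | IsRoot cs h x} = ⊤) {g : Y} (hg : ∀ x, IsRoot cs h x → ∀ u ∈ X x, g * u = u * g) : g = 1 := by
  apply H999.IFB.center_of hna
  intro x
  have h1 : RGD.Sup X {x | IsRoot cs h x} ≤ Subgroup.centralizer {g} :=
    RGD.Sup_le fun y hy u hu => Subgroup.mem_centralizer_singleton_iff.2 (hg y hy u hu).symm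
  rw [hG1] at h1
  exact (Subgroup.mem_centralizer_singleton_iff.1 (h1 (Subgroup.mem_top x))).symm

theorem inv2_sq [Finite Y] [IsSimpleGroup Y] (hna : ∃ a b : Y, a * b ≠ b * a)
    (hG1 : RGD.Sup X {x | IsRoot cs h x} = ⊤) {α : I → ℤ} {z : Y} (hz : Inv2 cs h T X α z) : z * z = 1 := by
  refine eq_one_of_central hna hG1 (cs := cs) (h := h) fun x hx u hu => ?_
  by_cases hc : psi hz.root x = 0
  · have h1 := hz.sgn.fix x hx hc u hu
    calc z * z * u = z * (z * u) := by group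
      _ = (z * u) * z := by rw [h1]; rw [← mul_assoc, h1]
      _ = u * (z * z) := by rw [h1]; group
  · have h1 := hz.sgn.inv x hx hc
    have h2 := h1 u hu
    have h3 := h1 _ (inv_mem hu)
    rw [inv_inv] at h3
    calc z * z * u = z * (z * u * z⁻¹) * z⁻¹ * (z * z) := by group
      _ = u * (z * z) := by rw [h2, h3]

theorem inv2_unique [Finite Y] [IsSimpleGroup Y] (hna : ∃ a b : Y, a * b ≠ b * a)
    (hG1 : RGD.Sup X {x | IsRoot cs h x} = ⊤) {α : I → ℤ} {z z' : Y} (hz : Inv2 cs h T X α z)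
    (hz' : Inv2 cs h T X α z') : z = z' := by
  have h0 : z'⁻¹ * z = 1 := by
    refine eq_one_of_central hna hG1 (cs := cs) (h := h) fun x hx u hu => ?_
    by_cases hc : psi hz.root x = 0
    · have h1 := hz.sgn.fix x hx hc u hu
      have h2 := hz'.sgn.fix x hx hc u hu
      calc z'⁻¹ * z * u = z'⁻¹ * (z * u) := by group
        _ = z'⁻¹ * (u * z') * z'⁻¹ * z := by rw [h1]; group
        _ = u * (z'⁻¹ * z) := by rw [← h2]; group
    · have h1 := hz.sgn.inv x hx hc u hu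
      have h2 := hz'.sgn.inv x hx hc u hu
      calc z'⁻¹ * z * u = z'⁻¹ * (z * u * z⁻¹) * z := by group
        _ = z'⁻¹ * (z' * u * z'⁻¹) * z := by rw [h1, h2]
        _ = u * (z'⁻¹ * z) := by group
  exact (inv_mul_eq_one.1 h0).symm

theorem inv2_conj [Finite Y] [IsSimpleGroup Y] (hna : ∃ a b : Y, a * b ≠ b * a) (R : RGD cs h p T n X)
    (hG1 : RGD.Sup X {x | IsRoot cs h x} = ⊤)
    (htr : ∀ α β, IsRoot cs h α → IsRoot cs h β → ∃ w, rep cs h w α = β) {α β : I → ℤ} {z z' : Y}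
    (hz : Inv2 cs h T X α z) (hz' : Inv2 cs h T X β z') : IsConj z z' := by
  obtain ⟨w, rfl⟩ := htr α β hz.root hz'.root
  obtain ⟨k, hk⟩ := exists_rp cs R.nsys w
  have h1 := inv2_unique hna hG1 (hz.conj R hk) hz'
  exact isConj_iff.2 ⟨k, h1⟩

end inv

section

variable [Finite W] [Finite Y] (R : RGD cs h p T n X) (hs : SL cs h)
  (hab : ∀ α, IsRoot cs h α → ∀ u ∈ X α, ∀ v ∈ X α, u * v = v * u) {q : ℕ}
  (hcard : ∀ α, IsRoot cs h α → Nat.card (X α) = q) (hq : 3 ≤ q) (hodd : Odd q)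

include R hs hab hcard hq hodd

omit R hs hab hcard hq hodd in
theorem finite_roots : {x | IsRoot cs h x}.Finite := by
  have : {x | IsRoot cs h x} ⊆ Set.range (fun p : W × I => rep cs h p.1 (sr p.2)) := by
    rintro x ⟨w, i, rfl⟩
    exact ⟨(w, i), rfl⟩
  exact (Set.finite_range _).subset this

omit R hs hab hcard hq hodd in
/-- the finset of the roots `β` in `EC C` with `⟨β, α^∨⟩ = 1` -/
theorem exists_S (C : List (I → ℤ)) (α : I → ℤ) {m : ℕ} (hm : {β | β ∈ EC cs h C ∧ cpr cs h β α = 1}.ncard = m) :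
    ∃ S : Finset (I → ℤ), (∀ β, β ∈ S ↔ β ∈ EC cs h C ∧ cpr cs h β α = 1) ∧ S.card = m := by
  have hf : {β | β ∈ EC cs h C ∧ cpr cs h β α = 1}.Finite := finite_roots.subset fun x hx => hx.1.1
  refine ⟨hf.toFinset, fun β => by simp [Set.Finite.mem_toFinset], ?_⟩
  rw [← hm, Set.ncard_eq_toFinset_card _ hf]

omit R hs hab hcard hq hodd in
theorem ncard_neg {C : List (I → ℤ)} (hC : ∀ c ∈ C, IsRoot cs h c) {α : I → ℤ} (hα : IsRoot cs h α) {m : ℕ}
    (hm : {β | β ∈ EC cs h C ∧ cpr cs h β α = 1}.ncard = m) :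
    {β | β ∈ EC cs h C ∧ cpr cs h β (-α) = 1}.ncard = m := by
  have e : {β | β ∈ EC cs h C ∧ cpr cs h β (-α) = 1} = Neg.neg '' {β | β ∈ EC cs h C ∧ cpr cs h β α = 1} := by
    ext β
    constructor
    · rintro ⟨⟨h1, h2⟩, h3⟩
      refine ⟨-β, ⟨⟨h1.neg, fun c hc => by rw [cpr_neg_left _ (hC c hc), h2 c hc, neg_zero]⟩, ?_⟩, neg_neg β⟩
      rw [cpr_neg_left _ hα]
      rw [cpr_neg_right cs h β hα] at h3
      exact h3
    · rintro ⟨β, ⟨⟨h1, h2⟩, h3⟩, rfl⟩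
      refine ⟨⟨h1.neg, fun c hc => by rw [cpr_neg_left _ (hC c hc), h2 c hc, neg_zero]⟩, ?_⟩
      rw [cpr_neg_left _ hα.neg, cpr_neg_right cs h β hα, h3]
      norm_num
  rw [e, Set.ncard_image_of_injective _ neg_injective, hm]

omit R hs hab hcard hq hodd in
theorem sup_le_cent {θ : I → ℤ} {z : Y} (hz : Inv2 cs h T X θ z) :
    RGD.Sup X (EC cs h [θ]) ≤ Subgroup.centralizer {z} := by
  refine RGD.Sup_le fun x hx u hu => ?_
  have h1 : cpr cs h x θ = 0 := hx.2 θ (by simp)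
  exact Subgroup.mem_centralizer_singleton_iff.2 (hz.sgn.fix x hx.1 (psi_zero hz.root h1) u hu).symm

omit hq in
theorem inv2_ne [Fact p.Prime] {θ : I → ℤ} {z : Y} (hz : Inv2 cs h T X θ z)
    (hex : ∃ β, IsRoot cs h β ∧ cpr cs h β θ = 1) : z ≠ 1 := by
  rintro rfl
  obtain ⟨β, hβ, hc⟩ := hex
  apply X_ne_bot R hβ
  rw [Subgroup.eq_bot_iff_forall]
  intro u hu
  exact odd_moves R hcard hodd hz hβ (psi_one hz.root hc) hu (by rw [one_mul, mul_one])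

/-- **the end game** -/
theorem endgame [IsSimpleGroup Y] [Fact p.Prime] (hna : ∃ a b : Y, a * b ≠ b * a)
    (hG1 : RGD.Sup X {x | IsRoot cs h x} = ⊤) (hsim : ∀ i, ∃ z, Inv2 cs h T X (sr i) z)
    (htr : ∀ α β, IsRoot cs h α → IsRoot cs h β → ∃ w, rep cs h w α = β) {d e : ℕ} (hd : 0 < d)
    (hcnt : ∀ θ x, IsRoot cs h θ → IsRoot cs h x → cpr cs h x θ = 0 →
      {β | IsRoot cs h β ∧ cpr cs h β θ = 0 ∧ cpr cs h β x = 1}.ncard = 2 * d)
    {θ : I → ℤ} (hθ : IsRoot cs h θ)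
    (h3 : ∃ α₁ α₂, IsRoot cs h α₁ ∧ IsRoot cs h α₂ ∧ cpr cs h α₁ θ = 0 ∧ cpr cs h α₂ θ = 0 ∧ cpr cs h α₂ α₁ = 0 ∧
      {β | IsRoot cs h β ∧ cpr cs h β θ = 0 ∧ cpr cs h β α₁ = 0 ∧ cpr cs h β α₂ = 1}.ncard = 2 * e)
    (h4 : ∀ r, IsRoot cs h r → ∃ x, IsRoot cs h x ∧ cpr cs h x θ = 0 ∧ cpr cs h r x = 0)
    {z : Y} (hz : Inv2 cs h T X θ z)
    (hn2 : (Subgroup.centralizer ({z} : Set Y)).index ≤ (q ^ (d + e + 2)) ^ 5)
    (hn3 : (Subgroup.centralizer ({z} : Set Y)).index * (q + 1) ≤ (p * q ^ d) ^ 4 * q ^ (4 * d + 1))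
    {B : Subgroup Y} {Γ : Subgroup (MulAut Y)} (hIF : IF B Γ) (hzB : ∃ t ∈ B, IsConj z t) : False := by
  have hEC1 : ∀ a : I → ℤ, ∀ x, x ∈ EC cs h [a] ↔ IsRoot cs h x ∧ cpr cs h x a = 0 := by
    intro a x
    unfold EC
    simp
  have hGG : GG cs h T X = ⊤ := by
    have h1 : RGD.Sup X {x | IsRoot cs h x} ≤ GG cs h T X := RGD.Sup_le fun x hx => X_le_GG hx
    rw [hG1] at h1
    exact top_le_iff.1 h1
  -- a root not orthogonal
  have hex1 : ∀ α, IsRoot cs h α → ∃ β, IsRoot cs h β ∧ cpr cs h β α = 1 := by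
    intro α hα
    obtain ⟨x, hx, -, hx1⟩ := h4 α hα
    have h1 := hcnt x α hx hα hx1
    have h2 : {β | IsRoot cs h β ∧ cpr cs h β x = 0 ∧ cpr cs h β α = 1}.Nonempty := by
      apply Set.nonempty_of_ncard_ne_zero
      omega
    obtain ⟨β, hβ, -, hβ'⟩ := h2
    exact ⟨β, hβ, hβ'⟩
  have hsq : ∀ {α : I → ℤ} {y : Y}, Inv2 cs h T X α y → y * y = 1 := fun hy => inv2_sq hna hG1 hy
  have hord : ∀ {α : I → ℤ} {y : Y}, Inv2 cs h T X α y → orderOf y = 2 := by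
    intro α y hy
    refine orderOf_eq_prime ?_ (inv2_ne R hs hab hcard hodd hy (hex1 α hy.root))
    rw [pow_two]; exact hsq hy
  have hzc : ∀ {α : I → ℤ} {y : Y}, Inv2 cs h T X α y → IsConj z y := fun hy =>
    inv2_conj hna R hG1 htr hz hy
  -- the fixity
  obtain ⟨t₀, ht₀, hzt₀⟩ := hzB
  obtain ⟨f, hf⟩ : ∃ f, f = fx B (MulAut.conj t₀) := ⟨_, rfl⟩
  have hordc : ∀ t, IsConj z t → orderOf t = 2 := by
    intro t ht
    obtain ⟨c, rfl⟩ := isConj_iff.1 ht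
    rw [← hord hz]
    exact orderOf_injective (MulAut.conj c).toMonoidHom (MulAut.conj c).injective z
  have F1 : ∀ g t, t ∈ cj g B → IsConj z t → fx (cj g B) (MulAut.conj t) = f := by
    intro g t ht hzt
    rw [mem_cj] at ht
    have e1 : t = g * (g⁻¹ * t * g) * g⁻¹ := by group
    have hc : IsConj t (g⁻¹ * t * g) := isConj_iff.2 ⟨g⁻¹, by rw [inv_inv]⟩
    rw [e1, fx_cj, hf]
    exact fx_conj hIF ht ht₀ (hc.symm.trans (hzt.symm.trans hzt₀))
  have F3 : ∀ g t, t ∈ cj g B → IsConj z t → ∀ C ≤ Subgroup.centralizer ({t} : Set Y), (cj g B).relIndex C ≤ f := by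
    intro g t ht hzt C hC
    obtain ⟨Γ', hIF'⟩ := IF_cj hIF g
    rw [← F1 g t ht hzt]
    refine H680.Fxy.relIndex_le (cj g B) (MulAut.conj t) fun b hb => ?_
    have := Subgroup.mem_centralizer_singleton_iff.1 (hC hb)
    rw [MulAut.conj_apply, mul_inv_eq_iff_eq_mul]
    exact this.symm
  have hidx : ∀ t, IsConj z t → (Subgroup.centralizer ({t} : Set Y)).index = (Subgroup.centralizer ({z} : Set Y)).index :=
    fun t ht => (H255.IFK.index_centralizer_conj ht).symm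
  have F4 : f ^ 5 < (Subgroup.centralizer ({z} : Set Y)).index := by
    rw [← hidx t₀ hzt₀, hf]
    exact (H999.IFB.IF.E2' hIF hna ht₀ (hordc t₀ hzt₀)).2.2.1
  -- STEP 2: a second involution
  obtain ⟨g₀, hg₀⟩ : ∃ g₀ : Y, z ∈ cj g₀ B := by
    obtain ⟨c, hc⟩ := isConj_iff.1 hzt₀
    refine ⟨c⁻¹, ?_⟩
    rw [mem_cj, inv_inv, hc]
    exact ht₀
  obtain ⟨g₁, x, zx, hx, hzx, hg₁, hg₁'⟩ : ∃ (g₁ : Y) (x : I → ℤ) (zx : Y), x ∈ EC cs h [θ] ∧ Inv2 cs h T X x zx ∧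
      z ∈ cj g₁ B ∧ zx ∈ cj g₁ B := by
    obtain ⟨α₁, α₂, hα₁, hα₂, h10, h20, h21, hc2⟩ := h3
    obtain ⟨z₁, hz₁⟩ := exists_inv2 R hsim hα₁
    obtain ⟨z₂, hz₂⟩ := exists_inv2 R hsim hα₂
    have hα₁C : α₁ ∈ EC cs h [θ] := (hEC1 _ _).2 ⟨hα₁, h10⟩
    have hEC2 : ∀ x, x ∈ EC cs h [α₁, θ] ↔ IsRoot cs h x ∧ cpr cs h x θ = 0 ∧ cpr cs h x α₁ = 0 := by
      intro x
      unfold EC
      simp only [List.mem_cons, List.not_mem_nil, or_false, forall_eq_or_imp, forall_eq, Set.mem_ofPred_eq]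
      tauto
    have hα₂C : α₂ ∈ EC cs h [α₁, θ] := (hEC2 _).2 ⟨hα₂, h20, h21⟩
    have hC1 : ∀ c ∈ [θ], IsRoot cs h c := by simpa using hθ
    have hC2 : ∀ c ∈ [α₁, θ], IsRoot cs h c := by
      simp only [List.mem_cons, List.not_mem_nil, or_false, forall_eq_or_imp, forall_eq]
      exact ⟨hα₁, hθ⟩
    have hm1 : {β | β ∈ EC cs h [θ] ∧ cpr cs h β α₁ = 1}.ncard = 2 * d := by
      rw [← hcnt θ α₁ hθ hα₁ h10]
      congr 1
      ext β
      simp only [Set.mem_ofPred_eq, hEC1, and_assoc]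
    have hm2 : {β | β ∈ EC cs h [α₁, θ] ∧ cpr cs h β α₂ = 1}.ncard = 2 * e := by
      rw [← hc2]
      congr 1
      ext β
      simp only [Set.mem_ofPred_eq, hEC2, and_assoc]
    obtain ⟨S₁, hS₁, hk₁⟩ := exists_S [θ] α₁ hm1
    obtain ⟨S₁', hS₁', hk₁'⟩ := exists_S [θ] (-α₁) (ncard_neg hC1 hα₁ hm1)
    obtain ⟨S₂, hS₂, hk₂⟩ := exists_S [α₁, θ] α₂ hm2
    obtain ⟨S₂', hS₂', hk₂'⟩ := exists_S [α₁, θ] (-α₂) (ncard_neg hC2 hα₂ hm2)
    set L := RGD.Sup X (EC cs h [θ]) with hL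
    let Zs : Set Y := {y | ∃ l ∈ L, ∃ (x : I → ℤ) (zx : Y), x ∈ EC cs h [θ] ∧ Inv2 cs h T X x zx ∧ y = l * zx * l⁻¹}
    have hZ2 : ∀ y ∈ Zs, y * y = 1 := by
      rintro _ ⟨l, hl, x, zx, hx, hzx, rfl⟩
      calc l * zx * l⁻¹ * (l * zx * l⁻¹) = l * (zx * zx) * l⁻¹ := by group
        _ = 1 := by rw [hsq hzx]; group
    have hZc : ∀ g ∈ L, ∀ y ∈ Zs, g * y * g⁻¹ ∈ Zs := by
      rintro g hg _ ⟨l, hl, x, zx, hx, hzx, rfl⟩
      exact ⟨g * l, mul_mem hg hl, x, zx, hx, hzx, by group⟩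
    have hmono : RGD.Sup X (EC cs h [α₁, θ]) ≤ L := RGD.Sup_mono (EC_mono α₁ [θ])
    have hmem : ∀ {x : I → ℤ} {zx : Y}, x ∈ EC cs h [θ] → Inv2 cs h T X x zx → zx ∈ Zs := by
      intro x zx hx hzx
      exact ⟨1, one_mem _, x, zx, hx, hzx, by group⟩
    have hphi0 : H203.IF.Phi (RGD.Sup X (EC cs h (α₂ :: [α₁, θ]))) Zs 1 := by
      intro K _ _
      exact Nat.one_le_iff_ne_zero.2 (H203.IF.rel_ne _ _)
    have hphi1 := phi_step R hs hab hcard hq hodd hC2 hα₂C S₂ S₂' hS₂ hS₂' hk₂ hk₂' hZ2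
      (fun g hg => hZc g (hmono hg)) hz₂ (hmem ((hEC1 _ _).2 ⟨hα₂, h20⟩) hz₂) hphi0
    have hphi2 := phi_step R hs hab hcard hq hodd hC1 hα₁C S₁ S₁' hS₁ hS₁' hk₁ hk₁' hZ2 hZc hz₁
      (hmem hα₁C hz₁) hphi1
    by_contra hcon
    have hno : ∀ y ∈ Zs, y ∉ cj g₀ B ⊓ L := by
      rintro _ ⟨l, hl, x, zx, hx, hzx, rfl⟩ hy
      apply hcon
      refine ⟨l⁻¹ * g₀, x, zx, hx, hzx, ?_, ?_⟩
      · rw [cj_mul, mem_cj, inv_inv]
        have h5 := sup_le_cent hz hl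
        rw [Subgroup.mem_centralizer_singleton_iff] at h5
        rw [h5, mul_inv_cancel_right]
        exact hg₀
      · rw [cj_mul, mem_cj, inv_inv]
        exact (Subgroup.mem_inf.1 hy).1
    have h5 := hphi2 (cj g₀ B ⊓ L) inf_le_right hno
    rw [Subgroup.inf_relIndex_right] at h5
    have h6 := F3 g₀ z hg₀ (IsConj.refl z) L (sup_le_cent hz)
    have h7 : (q ^ (d + e + 2)) ^ 5 ≤ f ^ 5 := by
      refine Nat.pow_le_pow_left (le_trans (le_of_eq ?_) (h5.trans h6)) 5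
      ring
    omega
  -- STEP 3
  have hxr := hx.1
  have hxθ : cpr cs h x θ = 0 := hx.2 θ (by simp)
  have hθx : cpr cs h θ x = 0 := by rw [hs θ x hθ hxr, hxθ]
  have hcb : q ^ (4 * d + 1) ≤ (Subgroup.centralizer ({zx} : Set Y)).relIndex (Subgroup.centralizer {z}) * (q + 1) := by
    obtain ⟨w, hw⟩ := Cfsg.Agent.Nodes.Comb.exists_dom_rep cs h x
    obtain ⟨k, hk⟩ := exists_rp cs R.nsys w
    have hzx' := hzx.conj R hk
    have hz' := hz.conj R hk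
    have hθ' : IsRoot cs h (rep cs h w θ) := hθ.act w
    have hx' : IsRoot cs h (rep cs h w x) := hxr.act w
    have hC : ∀ c ∈ [rep cs h w θ], IsRoot cs h c := by simpa using hθ'
    have h5 : cpr cs h (rep cs h w x) (rep cs h w θ) = 0 := by rw [cpr_rep cs h w x hθ, hxθ]
    have hαC : rep cs h w x ∈ EC cs h [rep cs h w θ] := (hEC1 _ _).2 ⟨hx', h5⟩
    have hm1 : {β | β ∈ EC cs h [rep cs h w θ] ∧ cpr cs h β (rep cs h w x) = 1}.ncard = 2 * d := by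
      rw [← hcnt _ _ hθ' hx' h5]
      congr 1
      ext β
      simp only [Set.mem_ofPred_eq, hEC1, and_assoc]
    obtain ⟨S₁, hS₁, hk₁⟩ := exists_S [rep cs h w θ] _ hm1
    obtain ⟨S₁', hS₁', hk₁'⟩ := exists_S [rep cs h w θ] _ (ncard_neg hC hx' hm1)
    have h6 := c_bound R hs hab hcard hq hodd hGG hw hzx' (fun y hy hyx => by
      have h7 := hcnt (rep cs h w x) y hx' hy hyx
      have h8 : {β | IsRoot cs h β ∧ cpr cs h β (rep cs h w x) = 0 ∧ cpr cs h β y = 1}.Nonempty := by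
        apply Set.nonempty_of_ncard_ne_zero
        omega
      exact h8) hC hαC S₁ S₁' hS₁ hS₁' hk₁ hk₁' (sup_le_cent hz')
    rw [← cj_cent, ← cj_cent, rel_cj] at h6
    exact h6
  have hzne : zx ≠ z := by
    rintro rfl
    -- a root with `⟨β, x⟩ = 1`, `⟨β, θ⟩ = 0`
    have h7 := hcnt θ x hθ hxr hxθ
    have h8 : {β | IsRoot cs h β ∧ cpr cs h β θ = 0 ∧ cpr cs h β x = 1}.Nonempty := by
      apply Set.nonempty_of_ncard_ne_zero
      omega
    obtain ⟨β, hβ, hβ1, hβ2⟩ := h8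
    apply X_ne_bot R hβ
    rw [Subgroup.eq_bot_iff_forall]
    intro u hu
    exact odd_moves R hcard hodd hzx hβ (psi_one hxr hβ2) hu (hz.sgn.fix β hβ (psi_zero hθ hβ1) u hu)
  have hzcomm : zx * z = z * zx := by
    have h5 : zx ∈ Subgroup.centralizer ({z} : Set Y) := by
      obtain ⟨u, hu, hu1⟩ : ∃ u ∈ X x, u ≠ 1 := by
        by_contra hcon
        push Not at hcon
        exact X_ne_bot R hxr ((Subgroup.eq_bot_iff_forall _).2 hcon)
      obtain ⟨v, hv, hv1⟩ : ∃ u ∈ X (-x), u ≠ 1 := by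
        by_contra hcon
        push Not at hcon
        exact X_ne_bot R hxr.neg ((Subgroup.eq_bot_iff_forall _).2 hcon)
      have h6 := hzx.opp u hu v hv hu1 hv1
      refine (Subgroup.closure_le _).2 ?_ h6
      rintro y (rfl | rfl)
      · exact sup_le_cent hz (RGD.le_Sup hx hu)
      · refine sup_le_cent hz (RGD.le_Sup ((hEC1 _ _).2 ⟨hxr.neg, ?_⟩) hv)
        rw [cpr_neg_left _ hθ, hxθ, neg_zero]
    exact Subgroup.mem_centralizer_singleton_iff.1 h5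
  have hfp : f < p * q ^ d := by
    by_contra hcon
    push Not at hcon
    obtain ⟨Γ', hIF'⟩ := IF_cj hIF g₁
    have h5 := (H809.IFC.IF.E4 hIF' hna hg₁' hg₁ (hord hzx) (hord hz) hzne hzcomm).2.2.1
    rw [F1 g₁ z hg₁ (IsConj.refl z), hidx zx (hzc hzx)] at h5
    have h6 : (p * q ^ d) ^ 4 ≤ f ^ 4 := Nat.pow_le_pow_left hcon 4
    set c := (Subgroup.centralizer ({zx} : Set Y)).relIndex (Subgroup.centralizer {z})
    have h7 : (Subgroup.centralizer ({z} : Set Y)).index * (q + 1) < (Subgroup.centralizer ({z} : Set Y)).index * (q + 1) :=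
      calc (Subgroup.centralizer ({z} : Set Y)).index * (q + 1) ≤ (p * q ^ d) ^ 4 * q ^ (4 * d + 1) := hn3
        _ ≤ f ^ 4 * (c * (q + 1)) := Nat.mul_le_mul h6 hcb
        _ = f ^ 4 * c * (q + 1) := by ring
        _ < _ := Nat.mul_lt_mul_of_pos_right h5 (Nat.succ_pos q)
    exact lt_irrefl _ h7
  have S3 : ∀ (g : Y) (θ' : I → ℤ) (z' : Y), Inv2 cs h T X θ' z' → z' ∈ cj g B → ∀ y ∈ EC cs h [θ'], X y ≤ cj g B := by
    intro g θ' z' hz' hg y hy
    obtain ⟨hyr, hyθ⟩ := (hEC1 _ _).1 hy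
    have hC : ∀ c ∈ [θ'], IsRoot cs h c := by simpa using hz'.root
    have hm1 : {β | β ∈ EC cs h [θ'] ∧ cpr cs h β y = 1}.ncard = 2 * d := by
      rw [← hcnt _ _ hz'.root hyr hyθ]
      congr 1
      ext β
      simp only [Set.mem_ofPred_eq, hEC1, and_assoc]
    obtain ⟨S₁, hS₁, hk₁⟩ := exists_S [θ'] _ hm1
    obtain ⟨H, hL, hk⟩ := heis_EC R hs hab hcard hq hodd hC hy S₁ hS₁
    have h5 := F3 g z' hg (hzc hz') _ (hL.trans (sup_le_cent hz'))
    refine H.le_of_rel_p (cj g B) (m := q ^ d) (p := p) (Fact.out : p.Prime) (R.pgrp' hyr) ?_ (lt_of_le_of_lt h5 hfp)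
    rw [hk, hk₁, hcard y hyr]
    exact le_of_eq (by ring)
  -- STEP 4
  have hall : ∀ r, IsRoot cs h r → X r ≤ cj g₁ B := by
    intro r hr
    obtain ⟨y, hy, hyθ, hry⟩ := h4 r hr
    have h5 := S3 g₁ θ z hz hg₁ y ((hEC1 _ _).2 ⟨hy, hyθ⟩)
    have h6 := S3 g₁ θ z hz hg₁ (-y) ((hEC1 _ _).2 ⟨hy.neg, by rw [cpr_neg_left _ hθ, hyθ, neg_zero]⟩)
    obtain ⟨zy, hzy⟩ := exists_inv2 R hsim hy
    obtain ⟨u, hu, hu1⟩ : ∃ u ∈ X y, u ≠ 1 := by
      by_contra hcon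
      push Not at hcon
      exact X_ne_bot R hy ((Subgroup.eq_bot_iff_forall _).2 hcon)
    obtain ⟨v, hv, hv1⟩ : ∃ u ∈ X (-y), u ≠ 1 := by
      by_contra hcon
      push Not at hcon
      exact X_ne_bot R hy.neg ((Subgroup.eq_bot_iff_forall _).2 hcon)
    have h7 : zy ∈ cj g₁ B := by
      refine (Subgroup.closure_le _).2 ?_ (hzy.opp u hu v hv hu1 hv1)
      rintro a (rfl | rfl)
      · exact h5 hu
      · exact h6 hv
    exact S3 g₁ y zy hzy h7 r ((hEC1 _ _).2 ⟨hr, hry⟩)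
  obtain ⟨Γ', hIF'⟩ := IF_cj hIF g₁
  apply hIF'.ne_top
  rw [eq_top_iff, ← hG1]
  exact RGD.Sup_le fun r hr => hall r hr

end

end Cfsg.Agent.H176.IFe
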