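import Mathlib

/-!
# The frame lemma (helper176, S5719)

`Level` : `Q`, `R`, `n`, `z`, a number `b` with `OKL` : `D ≤ Q`, `D ∩ R = 1` implies `b |D| ≤ |Q|`; `|Q|` is odd; the
involution `z` lies in `⟨x, n x' n⁻¹⟩` for `1 ≠ x, x' ∈ R`.
`frame` : if later levels normalise the `Q`, `R` of the earlier levels and no `z` has a fixed point on `Y` then
`∏ b ≤ |Y|`.
-/

set_option autoImplicit false

universe u v

namespace Cfsg.Agent.H176.IFr

open Subgroup MulAction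

variable {C : Type v} [Group C]

/-- the conditions for one level -/
structure OKL (Q R : Subgroup C) (n z : C) (b : ℕ) : Prop where
  odd : Odd (Nat.card Q)
  iso : ∀ D : Subgroup C, D ≤ Q → D ⊓ R = ⊥ → b * Nat.card D ≤ Nat.card Q
  sl : ∀ x ∈ R, x ≠ 1 → ∀ x' ∈ R, x' ≠ 1 → z ∈ closure {x, n * x' * n⁻¹}
  sq : z * z = 1
  norm : Q ≤ normalizer (R : Set C)

/-- one level of a frame -/
structure Level (C : Type v) [Group C] where
  Q : Subgroup C
  R : Subgroup C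
  n : C
  z : C
  b : ℕ
  ok : OKL Q R n z b

/-- `m` normalises `l` -/
structure Nrm (l m : Level C) : Prop where
  QQ : m.Q ≤ normalizer (l.Q : Set C)
  QR : m.Q ≤ normalizer (l.R : Set C)
  nQ : m.n ∈ normalizer (l.Q : Set C)
  nR : m.n ∈ normalizer (l.R : Set C)
  zQ : m.z ∈ normalizer (l.Q : Set C)
  zR : m.z ∈ normalizer (l.R : Set C)

/-- the level is contained in the subgroup `N` -/
structure In (N : Subgroup C) (l : Level C) : Prop where
  Q : l.Q ≤ N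
  n : l.n ∈ N
  z : l.z ∈ N

section act

variable {N : Subgroup C} {Y : Type u} [MulAction N Y]

/-- the stabiliser as a subgroup of `C` -/
def St (N : Subgroup C) {Y : Type u} [MulAction N Y] (y : Y) : Subgroup C := (stabilizer N y).map N.subtype

theorem mem_St {y : Y} {g : C} : g ∈ St N y ↔ ∃ h : g ∈ N, (⟨g, h⟩ : N) • y = y := by
  constructor
  · rintro ⟨⟨g', h'⟩, h1, rfl⟩
    exact ⟨h', h1⟩
  · rintro ⟨h, h1⟩
    exact ⟨⟨g, h⟩, h1, rfl⟩

theorem mem_St_smul {y : Y} {g : C} (a : N) : g ∈ St N (a • y) ↔ (a : C)⁻¹ * g * a ∈ St N y := by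
  rw [mem_St, mem_St]
  constructor
  · rintro ⟨h, h1⟩
    refine ⟨mul_mem (mul_mem (inv_mem a.2) h) a.2, ?_⟩
    have h2 : (⟨(a : C)⁻¹ * g * a, mul_mem (mul_mem (inv_mem a.2) h) a.2⟩ : N) = a⁻¹ * ⟨g, h⟩ * a := rfl
    rw [h2, mul_smul, mul_smul, h1, inv_smul_smul]
  · rintro ⟨h, h1⟩
    have h3 : g ∈ N := by
      have := mul_mem (mul_mem a.2 h) (inv_mem a.2)
      have h4 : (a : C) * ((a : C)⁻¹ * g * a) * (a : C)⁻¹ = g := by group
      rwa [h4] at this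
    refine ⟨h3, ?_⟩
    have h2 : (⟨(a : C)⁻¹ * g * a, h⟩ : N) = a⁻¹ * ⟨g, h3⟩ * a := rfl
    rw [h2, mul_smul, mul_smul, inv_smul_eq_iff] at h1
    exact h1

variable (N Y) in
/-- the good points -/
def Gp (R : Subgroup C) : Set Y := {y | St N y ⊓ R = ⊥}

theorem smul_mem_Gp {R : Subgroup C} {y : Y} (hy : y ∈ Gp N Y R) (a : N) (ha : (a : C) ∈ normalizer (R : Set C)) :
    a • y ∈ Gp N Y R := by
  have hy' : St N y ⊓ R = ⊥ := hy
  show St N (a • y) ⊓ R = ⊥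
  rw [eq_bot_iff]
  intro g hg
  obtain ⟨h1, h2⟩ := mem_inf.1 hg
  rw [mem_St_smul] at h1
  have h3 : (a : C)⁻¹ * g * a ∈ R := by
    have := (mem_normalizer_iff.1 (inv_mem ha) g).1 h2
    simpa using this
  have h4 : (a : C)⁻¹ * g * a ∈ St N y ⊓ R := mem_inf.2 ⟨h1, h3⟩
  rw [hy', mem_bot] at h4
  rw [mem_bot]
  have h5 : g = a * ((a : C)⁻¹ * g * a) * (a : C)⁻¹ := by group
  rw [h5, h4]; group

theorem exists_Gp [Nonempty Y] {l : Level C} (hl : In N l) (hz : ∀ y : Y, (⟨l.z, hl.z⟩ : N) • y ≠ y) :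
    (Gp N Y l.R).Nonempty := by
  obtain ⟨y⟩ : Nonempty Y := inferInstance
  by_contra hcon
  rw [Set.not_nonempty_iff_eq_empty] at hcon
  have key : ∀ y : Y, ∃ x ∈ l.R, x ≠ 1 ∧ x ∈ St N y := by
    intro y
    have h1 : y ∉ Gp N Y l.R := by rw [hcon]; exact Set.notMem_empty y
    have h2 : St N y ⊓ l.R ≠ ⊥ := h1
    obtain ⟨⟨x, hx⟩, hx1⟩ := Subgroup.ne_bot_iff_exists_ne_one.1 h2
    refine ⟨x, (mem_inf.1 hx).2, ?_, (mem_inf.1 hx).1⟩
    intro h3
    exact hx1 (Subtype.ext h3)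
  obtain ⟨x, hxR, hx1, hxS⟩ := key y
  obtain ⟨x', hxR', hx1', hxS'⟩ := key ((⟨l.n, hl.n⟩ : N)⁻¹ • y)
  rw [mem_St_smul] at hxS'
  have h3 : l.n * x' * l.n⁻¹ ∈ St N y := by
    have : (((⟨l.n, hl.n⟩ : N)⁻¹ : N) : C)⁻¹ * x' * (((⟨l.n, hl.n⟩ : N)⁻¹ : N) : C) = l.n * x' * l.n⁻¹ := by
      simp
    rwa [this] at hxS'
  have h4 := l.ok.sl x hxR hx1 x' hxR' hx1'
  have h5 : closure {x, l.n * x' * l.n⁻¹} ≤ St N y := by
    rw [closure_le]
    rintro a (rfl | rfl)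
    · exact hxS
    · exact h3
  obtain ⟨h6, h7⟩ := mem_St.1 (h5 h4)
  exact hz y h7

/-- the orbit under `Q` -/
def Orb (N : Subgroup C) {Y : Type u} [MulAction N Y] (Q : Subgroup C) (y : Y) : Set Y := orbit (Q.subgroupOf N) y

theorem mem_Orb {Q : Subgroup C} {y y' : Y} : y' ∈ Orb N Q y ↔ ∃ q : N, (q : C) ∈ Q ∧ q • y = y' := by
  constructor
  · rintro ⟨⟨q, hq⟩, rfl⟩
    exact ⟨q, mem_subgroupOf.1 hq, rfl⟩
  · rintro ⟨q, hq, rfl⟩
    exact ⟨⟨q, mem_subgroupOf.2 hq⟩, rfl⟩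

theorem Orb_self {Q : Subgroup C} (y : Y) : y ∈ Orb N Q y := mem_Orb.2 ⟨1, one_mem Q, one_smul _ y⟩

theorem Orb_eq {Q : Subgroup C} {y y' : Y} (h : y' ∈ Orb N Q y) : Orb N Q y' = Orb N Q y := orbit_eq_iff.2 h

theorem image_Orb {Q : Subgroup C} {y : Y} (a : N) (ha : (a : C) ∈ normalizer (Q : Set C)) :
    (fun x => a • x) '' Orb N Q y = Orb N Q (a • y) := by
  ext x
  constructor
  · rintro ⟨x, hx, rfl⟩
    obtain ⟨q, hq, rfl⟩ := mem_Orb.1 hx
    refine mem_Orb.2 ⟨a * q * a⁻¹, ?_, ?_⟩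
    · have := (mem_normalizer_iff.1 ha (q : C)).1 hq
      simpa using this
    · show (a * q * a⁻¹) • a • y = a • q • y
      rw [← mul_smul, ← mul_smul]; congr 1; group
  · intro hx
    obtain ⟨q, hq, rfl⟩ := mem_Orb.1 hx
    refine ⟨(a⁻¹ * q * a) • y, mem_Orb.2 ⟨a⁻¹ * q * a, ?_, rfl⟩, ?_⟩
    · have := (mem_normalizer_iff.1 (inv_mem ha) (q : C)).1 hq
      simpa using this
    · show a • (a⁻¹ * q * a) • y = q • a • y
      rw [← mul_smul, ← mul_smul]; congr 1; group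

theorem card_Orb [Finite C] {Q : Subgroup C} (hQ : Q ≤ N) (y : Y) :
    Nat.card (Orb N Q y) * Nat.card (Q ⊓ St N y : Subgroup C) = Nat.card Q := by
  have h1 := Nat.card_congr (orbitProdStabilizerEquivGroup (Q.subgroupOf N) y)
  rw [Nat.card_prod] at h1
  have h2 : Nat.card (Q.subgroupOf N) = Nat.card Q := Nat.card_congr (subgroupOfEquivOfLe hQ).toEquiv
  rw [h2] at h1
  rw [← h1]
  congr 1
  symm
  refine Nat.card_congr
    { toFun := fun x => ⟨(x.1.1 : C), mem_inf.2 ⟨mem_subgroupOf.1 x.1.2, mem_St.2 ⟨x.1.1.2, x.2⟩⟩⟩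
      invFun := fun x => ⟨⟨⟨x.1, hQ (mem_inf.1 x.2).1⟩, mem_subgroupOf.2 (mem_inf.1 x.2).1⟩, ?_⟩
      left_inv := fun x => rfl
      right_inv := fun x => rfl }
  obtain ⟨h3, h4⟩ := mem_St.1 (mem_inf.1 x.2).2
  exact h4

end act

/-- **the frame lemma** -/
theorem frame [Finite C] (L : List (Level C)) : ∀ (N : Subgroup C) (Y : Type u) [Finite Y] [Nonempty Y] [MulAction N Y],
    (hin : ∀ l ∈ L, In N l) → L.Pairwise Nrm →
    (∀ (l : Level C) (hl : l ∈ L) (y : Y), (⟨l.z, (hin l hl).z⟩ : N) • y ≠ y) →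
    (L.map Level.b).prod ≤ Nat.card Y := by
  induction L with
  | nil =>
    intro N Y _ _ _ _ _ _
    simp only [List.map_nil, List.prod_nil]
    exact Nat.one_le_iff_ne_zero.2 Nat.card_pos.ne'
  | cons l L ih =>
    intro N Y _ _ _ hin hpw hz
    rw [List.pairwise_cons] at hpw
    have hlN := hin l List.mem_cons_self
    set N' : Subgroup C := N ⊓ normalizer (l.Q : Set C) ⊓ normalizer (l.R : Set C) with hN'
    have hN'N : N' ≤ N := inf_le_left.trans inf_le_left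
    let Y1 : Type u := {Δ : Set Y // ∃ y ∈ Gp N Y l.R, Δ = Orb N l.Q y}
    have hfin1 : Finite Y1 := inferInstance
    obtain ⟨y0, hy0⟩ := exists_Gp hlN (hz l List.mem_cons_self)
    have hne : Nonempty Y1 := ⟨⟨Orb N l.Q y0, y0, hy0, rfl⟩⟩
    let act : MulAction N' Y1 :=
      { smul := fun g Δ => ⟨(fun x => (⟨g, hN'N g.2⟩ : N) • x) '' Δ.1, by
          obtain ⟨y, hy, h1⟩ := Δ.2
          refine ⟨(⟨g, hN'N g.2⟩ : N) • y, smul_mem_Gp hy _ (mem_inf.1 g.2).2, ?_⟩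
          rw [h1]
          exact image_Orb _ (mem_inf.1 (mem_inf.1 g.2).1).2⟩
        one_smul := fun Δ => by
          apply Subtype.ext
          show (fun x => (1 : N) • x) '' Δ.1 = Δ.1
          simp
        mul_smul := fun g g' Δ => by
          apply Subtype.ext
          show (fun x => ((⟨g, hN'N g.2⟩ : N) * (⟨g', hN'N g'.2⟩ : N)) • x) '' Δ.1 =
            (fun x => (⟨g, hN'N g.2⟩ : N) • x) '' ((fun x => (⟨g', hN'N g'.2⟩ : N) • x) '' Δ.1)
          rw [Set.image_image]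
          congr 1
          funext x
          exact mul_smul _ _ _ }
    have hin' : ∀ m ∈ L, In N' m := by
      intro m hm
      have h1 := hin m (List.mem_cons_of_mem _ hm)
      have h2 := hpw.1 m hm
      exact ⟨le_inf (le_inf h1.Q h2.QQ) h2.QR, mem_inf.2 ⟨mem_inf.2 ⟨h1.n, h2.nQ⟩, h2.nR⟩,
        mem_inf.2 ⟨mem_inf.2 ⟨h1.z, h2.zQ⟩, h2.zR⟩⟩
    -- sizes of the orbits
    have horb : ∀ y ∈ Gp N Y l.R, l.b ≤ Nat.card (Orb N l.Q y) ∧ Odd (Nat.card (Orb N l.Q y)) := by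
      intro y hy
      have h1 := card_Orb hlN.Q y
      have h2 : (l.Q ⊓ St N y) ⊓ l.R = ⊥ := by
        rw [eq_bot_iff]
        have h3 : St N y ⊓ l.R = ⊥ := hy
        rw [← h3]
        exact le_inf (inf_le_left.trans inf_le_right) inf_le_right
      have h3 := l.ok.iso _ inf_le_left h2
      rw [← h1] at h3
      have h4 : 0 < Nat.card (l.Q ⊓ St N y : Subgroup C) := Nat.card_pos
      refine ⟨Nat.le_of_mul_le_mul_right h3 h4, ?_⟩
      have h5 := l.ok.odd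
      rw [← h1] at h5
      exact (Nat.odd_mul.1 h5).1
    have hfpf : ∀ (m : Level C) (hm : m ∈ L) (Δ : Y1), (⟨m.z, (hin' m hm).z⟩ : N') • Δ ≠ Δ := by
      rintro m hm ⟨Δ, y, hy, rfl⟩ he
      have h1 : (fun x => (⟨m.z, hN'N (hin' m hm).z⟩ : N) • x) '' (Orb N l.Q y) = Orb N l.Q y :=
        congrArg Subtype.val he
      set zz : N := ⟨m.z, hN'N (hin' m hm).z⟩ with hzz
      have hz2 : zz * zz = 1 := Subtype.ext m.ok.sq
      have hmap : ∀ x ∈ Orb N l.Q y, zz • x ∈ Orb N l.Q y := fun x hx => by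
        rw [← h1]; exact ⟨x, hx, rfl⟩
      let σ : Equiv.Perm (Orb N l.Q y) :=
        { toFun := fun x => ⟨zz • x.1, hmap x.1 x.2⟩
          invFun := fun x => ⟨zz • x.1, hmap x.1 x.2⟩
          left_inv := fun x => Subtype.ext (by show zz • zz • x.1 = x.1; rw [← mul_smul, hz2, one_smul])
          right_inv := fun x => Subtype.ext (by show zz • zz • x.1 = x.1; rw [← mul_smul, hz2, one_smul]) }
      have : Fintype (Orb N l.Q y) := Fintype.ofFinite _
      have h2 : ¬ 2 ∣ Fintype.card (Orb N l.Q y) := by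
        rw [← Nat.card_eq_fintype_card]
        exact Nat.two_dvd_ne_zero.2 (Nat.odd_iff.1 (horb y hy).2)
      have : Fact (Nat.Prime 2) := ⟨Nat.prime_two⟩
      have h3 : σ ^ 2 ^ 1 = 1 := by
        ext x
        show ((σ ^ 2 ^ 1) x : Orb N l.Q y).1 = x.1
        rw [pow_one, pow_two]
        show zz • zz • x.1 = x.1
        rw [← mul_smul, hz2, one_smul]
      obtain ⟨a, ha⟩ := Equiv.Perm.exists_fixed_point_of_prime (p := 2) (n := 1) h2 h3
      exact hz m (List.mem_cons_of_mem _ hm) a.1 (congrArg Subtype.val ha)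
    have h1 := @ih N' Y1 hfin1 hne act hin' hpw.2 hfpf
    -- counting
    have h2 : Nat.card (Σ Δ : Y1, Δ.1) ≤ Nat.card Y := by
      refine Nat.card_le_card_of_injective (fun x : Σ Δ : Y1, Δ.1 => x.2.1) ?_
      rintro ⟨⟨Δ, y, hy, rfl⟩, ⟨a, ha⟩⟩ ⟨⟨Δ', y', hy', rfl⟩, ⟨a', ha'⟩⟩ e
      have e' : a = a' := e
      subst e'
      have h3 : Orb N l.Q y = Orb N l.Q y' := (Orb_eq ha).symm.trans (Orb_eq ha')
      have h4 : (⟨Orb N l.Q y, y, hy, rfl⟩ : Y1) = ⟨Orb N l.Q y', y', hy', rfl⟩ := Subtype.ext h3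
      refine Sigma.ext h4 ?_
      refine (Subtype.heq_iff_coe_eq ?_).2 rfl
      intro x
      show x ∈ Orb N l.Q y ↔ x ∈ Orb N l.Q y'
      rw [h3]
    have h3 : l.b * Nat.card Y1 ≤ Nat.card (Σ Δ : Y1, Δ.1) := by
      have : Fintype Y1 := Fintype.ofFinite _
      rw [Nat.card_sigma]
      calc l.b * Nat.card Y1 = ∑ _Δ : Y1, l.b := by
            rw [Finset.sum_const, Finset.card_univ, smul_eq_mul, Nat.card_eq_fintype_card, mul_comm]
        _ ≤ ∑ Δ : Y1, Nat.card Δ.1 := by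
            refine Finset.sum_le_sum fun Δ _ => ?_
            obtain ⟨Δ, y, hy, rfl⟩ := Δ
            exact (horb y hy).1
    rw [List.map_cons, List.prod_cons]
    exact (Nat.mul_le_mul_left _ h1).trans (h3.trans h2)

end Cfsg.Agent.H176.IFr
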