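import Cfsg.Agent.H176.IF.Cnt
import Cfsg.Agent.H176.IF.Frame
import Cfsg.Agent.H557.LrMov

/-!
# S5719: involutions permuting the root groups (helper176)

`t` an involution, `cj t (X c) = X (w c)`.

* `surj_t`, `iso_t` : `C_Q(t)` for a Heisenberg group `Q` whose centre is centralised by `t`;
* `LT` : the data of a level `(C, α)`: representatives `S'` of the two-cycles of `w`; `LT.card_ge` : `q^(1+|S'|) ≤ |C_Q(t)|`;
* `LT.level` : the level of the frame lemma; `nrm` ;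
* `card_rec` : `|C_Q(t)|² |C_{k+1}| ≤ |C_k|`, `C_k = ⟨X x : x ⟂ C⟩ ∩ C(t)`.
-/

set_option autoImplicit false
set_option linter.unusedSectionVars false

namespace Cfsg.Agent.H176.IFn

open CoxeterSystem Cfsg.Agent.ChevalleyStructure.CoxeterGeom Cfsg.Agent.Tits.Roots Cfsg.Agent.Tits.Core
  Cfsg.Agent.Tits.Exchange Cfsg.Agent.Nodes.Reps Cfsg.Agent.Nodes.BNOf Cfsg.Agent.Nodes.StabComb
  Cfsg.Agent.Nodes.Bruhat Cfsg.Agent.Nodes.OppDec Cfsg.Agent.Nodes.PosPair Cfsg.Agent.Nodes.Coroot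
  Cfsg.Agent.Nodes.Unique Cfsg.Agent.KFacts.RgdSL Cfsg.Agent.H557.LrSgn Cfsg.Agent.H190.IF Cfsg.Agent.H176.IFe
open Cfsg.Agent.H203.IF (Heis QQ)
open Cfsg.Agent.H557.LrMov (Cn)
open scoped commutatorElement

section abs

variable {Y : Type*} [Group Y] [Finite Y] {ι : Type*} {Z : Subgroup Y} {P : ι → Subgroup Y} {S : Finset ι} {o : ι → ι}

theorem eq_one_of_sq {g : Y} (ho : Odd (orderOf g)) (hg : g * g = 1) : g = 1 := by
  have := mem_of_sq (H := (⊥ : Subgroup Y)) ho (by rw [hg]; exact one_mem _)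
  exact Subgroup.mem_bot.1 this

/-- `C_Q(t)` is again of Heisenberg type -/
theorem surj_t (H : Heis Z P S o) (hodd : Odd (Nat.card (QQ Z P S))) {t : Y} (htt : t * t = 1)
    (htZ : ∀ z ∈ Z, t * z = z * t) (htQ : ∀ g ∈ QQ Z P S, t * g * t⁻¹ ∈ QQ Z P S) {g : Y} (hg : g ∈ QQ Z P S)
    (hgt : t * g = g * t) (hgZ : g ∉ Z) {z : Y} (hz : z ∈ Z) :
    ∃ h ∈ QQ Z P S ⊓ Subgroup.centralizer {t}, ⁅g, h⁆ = z := by
  have ho : ∀ x ∈ QQ Z P S, Odd (orderOf x) := fun x hx =>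
    Odd.of_dvd_nat hodd (Subgroup.orderOf_dvd_natCard _ hx)
  -- a square root
  obtain ⟨c, hc, hcz⟩ : ∃ c ∈ Z, c * c = z := by
    obtain ⟨m, hm⟩ := Cfsg.Agent.H557.InvForm.exists_sqrt (ho z (H203.IF.Heis.Z_le hz))
    exact ⟨z ^ m, pow_mem hz m, hm⟩
  obtain ⟨h, hh, hgh⟩ := H.surjQ hg hgZ hc
  have hti : t⁻¹ = t := inv_eq_of_mul_eq_one_right htt
  obtain ⟨k, hk⟩ : ∃ k, k = t * h * t⁻¹ := ⟨_, rfl⟩
  have hkQ : k ∈ QQ Z P S := by rw [hk]; exact htQ h hh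
  have hkt : t * k * t⁻¹ = h := by
    rw [hk, hti]
    calc t * (t * h * t) * t = (t * t) * h * (t * t) := by group
      _ = h := by rw [htt, one_mul, mul_one]
  have hfix : ∀ x y : Y, ⁅x, y⁆ ∈ Z → ⁅t * x * t⁻¹, t * y * t⁻¹⁆ = ⁅x, y⁆ := by
    intro x y hxy
    have h1 := htZ _ hxy
    calc ⁅t * x * t⁻¹, t * y * t⁻¹⁆ = t * ⁅x, y⁆ * t⁻¹ := by rw [commutatorElement_def, commutatorElement_def]; group
      _ = ⁅x, y⁆ := by rw [h1, mul_inv_cancel_right]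
  -- `h` and `k` commute
  have hhk : ⁅h, k⁆ = 1 := by
    have h1 := H.com hh hkQ
    have h2 := hfix h k h1
    rw [hkt, ← hk] at h2
    refine eq_one_of_sq (ho _ (H203.IF.Heis.Z_le h1)) ?_
    nth_rewrite 1 [← h2]
    rw [← commutatorElement_inv, inv_mul_cancel]
  have hhk' : h * k = k * h := commutatorElement_eq_one_iff_mul_comm.1 hhk
  refine ⟨h * k, Subgroup.mem_inf.2 ⟨mul_mem hh hkQ, ?_⟩, ?_⟩
  · rw [Subgroup.mem_centralizer_singleton_iff]
    have h1 : t * (h * k) * t⁻¹ = h * k := by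
      calc t * (h * k) * t⁻¹ = (t * h * t⁻¹) * (t * k * t⁻¹) := by group
        _ = h * k := by rw [hkt, ← hk, hhk']
    exact (mul_inv_eq_iff_eq_mul.1 h1).symm
  · have h1 : ⁅g, k⁆ = c := by
      have h2 := hfix g h (by rw [hgh]; exact hc)
      have h3 : t * g * t⁻¹ = g := by rw [hgt, mul_inv_cancel_right]
      rw [h3, ← hk, hgh] at h2
      exact h2
    rw [H.mul_right (by rw [h1]; exact hc) hh, hgh, h1, hcz]

/-- isotropic subgroups of `C_Q(t)` -/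
theorem iso_t (H : Heis Z P S o) (hZ : Z ≠ ⊥) (hodd : Odd (Nat.card (QQ Z P S))) {t : Y} (htt : t * t = 1)
    (htZ : ∀ z ∈ Z, t * z = z * t) (htQ : ∀ g ∈ QQ Z P S, t * g * t⁻¹ ∈ QQ Z P S) (D : Subgroup Y)
    (hD : D ≤ QQ Z P S ⊓ Subgroup.centralizer {t}) (hDZ : D ⊓ Z = ⊥) :
    Nat.card D ^ 2 * Nat.card Z ≤ Nat.card (QQ Z P S ⊓ Subgroup.centralizer {t} : Subgroup Y) := by
  classical
  obtain ⟨⟨z₀, hz₀⟩, hz₁⟩ := Subgroup.ne_bot_iff_exists_ne_one.1 hZ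
  have hz₀D : z₀ ∉ (⊥ : Subgroup Y) := fun h => hz₁ (Subtype.ext (Subgroup.mem_bot.1 h))
  let i1 : CommGroup Z := { (inferInstance : Group Z) with
    mul_comm := fun a b => Subtype.ext (H.zz a a.2 b b.2) }
  obtain ⟨θ, hθ, -⟩ := H203.IF.exists_char (⊥ : Subgroup Z) (z := (⟨z₀, hz₀⟩ : Z)) (fun h => hz₁ (Subgroup.mem_bot.1 h))
  let G : Subgroup Y := QQ Z P S ⊓ Subgroup.centralizer {t}
  have hGQ : ∀ g : G, (g : Y) ∈ QQ Z P S := fun g => (Subgroup.mem_inf.1 g.2).1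
  have hZG : Z ≤ G := le_inf H203.IF.Heis.Z_le fun z hz => Subgroup.mem_centralizer_singleton_iff.2 (htZ z hz).symm
  let Pr : G → G → ℂˣ := fun g h => θ ⟨⁅(g : Y), (h : Y)⁆, H.com (hGQ g) (hGQ h)⟩
  have h1 := H203.IF.iso_abs (G := G) (Z.subgroupOf G) (D.subgroupOf G) Pr ?_ ?_ ?_ ?_ ?_ ?_
  · have e1 : Nat.card (D.subgroupOf G) = Nat.card D :=
      Nat.card_congr (Subgroup.subgroupOfEquivOfLe hD).toEquiv
    have e2 : Nat.card (Z.subgroupOf G) = Nat.card Z :=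
      Nat.card_congr (Subgroup.subgroupOfEquivOfLe hZG).toEquiv
    have e3 : Nat.card (D.subgroupOf G ⊓ Z.subgroupOf G : Subgroup G) = 1 := by
      have h2 : D.subgroupOf G ⊓ Z.subgroupOf G = (D ⊓ Z).subgroupOf G := rfl
      rw [h2, hDZ, Subgroup.bot_subgroupOf, Subgroup.card_bot]
    rw [e1, e2, e3, one_pow, one_mul] at h1
    exact h1
  · intro g g' h
    show θ _ = θ _ * θ _
    rw [mul_comm, ← map_mul]
    congr 1
    apply Subtype.ext
    exact H.mul_left (H.com (hGQ g') (hGQ h)) (hGQ g)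
  · intro g h h'
    show θ _ = θ _ * θ _
    rw [← map_mul]
    congr 1
    apply Subtype.ext
    exact H.mul_right (H.com (hGQ g) (hGQ h')) (hGQ h)
  · intro b hb
    by_contra hbZ
    have hbt : t * (b : Y) = b * t := (Subgroup.mem_centralizer_singleton_iff.1 (Subgroup.mem_inf.1 b.2).2).symm
    obtain ⟨h, hh, h2⟩ := surj_t H hodd htt htZ htQ (hGQ b) hbt (fun h => hbZ h) (inv_mem hz₀)
    have h3 := hb ⟨h, hh⟩
    apply hθ
    have h4 : (⟨⁅h, (b : Y)⁆, H.com (Subgroup.mem_inf.1 hh).1 (hGQ b)⟩ : Z) = ⟨z₀, hz₀⟩ := by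
      apply Subtype.ext
      show ⁅h, (b : Y)⁆ = z₀
      rw [← commutatorElement_inv, h2, inv_inv]
    rw [← h4]
    exact h3
  · intro z hz g
    show θ _ = 1
    have h4 : (⟨⁅(g : Y), (z : Y)⁆, H.com (hGQ g) (hGQ z)⟩ : Z) = 1 :=
      Subtype.ext (H203.IF.com_eq_one (H.zQ hz (hGQ g)).symm)
    rw [h4, map_one]
  · intro z hz g
    show θ _ = 1
    have h4 : (⟨⁅(z : Y), (g : Y)⁆, H.com (hGQ z) (hGQ g)⟩ : Z) = 1 :=
      Subtype.ext (H203.IF.com_eq_one (H.zQ hz (hGQ g)))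
    rw [h4, map_one]
  · intro b hb b' hb'
    show θ _ = 1
    have h4 : (⟨⁅(b : Y), (b' : Y)⁆, H.com (hGQ b) (hGQ b')⟩ : Z) = 1 := by
      apply Subtype.ext
      have h5 : ⁅(b : Y), (b' : Y)⁆ ∈ D ⊓ Z := by
        refine Subgroup.mem_inf.2 ⟨?_, H.com (hGQ b) (hGQ b')⟩
        rw [commutatorElement_def]
        exact mul_mem (mul_mem (mul_mem hb hb') (inv_mem hb)) (inv_mem hb')
      rw [hDZ] at h5
      exact Subgroup.mem_bot.1 h5
    rw [h4, map_one]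

end abs

variable {I W Y : Type*} [Fintype I] [DecidableEq I] [Group W] [Group Y] {M : CoxeterMatrix I}
  {cs : CoxeterSystem M W} {A : I → I → ℤ} {h : IsCartan M A} {p : ℕ} {T : Subgroup Y} {n : I → Y}
  {X : (I → ℤ) → Subgroup Y}

theorem fin_roots [Finite W] : {x | IsRoot cs h x}.Finite := by
  have : {x | IsRoot cs h x} ⊆ Set.range (fun p : W × I => rep cs h p.1 (sr p.2)) := by
    rintro x ⟨w, i, rfl⟩
    exact ⟨(w, i), rfl⟩
  exact (Set.finite_range _).subset this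

/-- the roots in `EC C` with `⟨β, α^∨⟩ = 1` -/
noncomputable def SF [Finite W] (cs : CoxeterSystem M W) (h : IsCartan M A) (C : List (I → ℤ)) (α : I → ℤ) :
    Finset (I → ℤ) :=
  ((fin_roots (cs := cs) (h := h)).subset
    (fun x hx => hx.1.1 : {β | β ∈ EC cs h C ∧ cpr cs h β α = 1} ⊆ {x | IsRoot cs h x})).toFinset

theorem mem_SF [Finite W] (C : List (I → ℤ)) (α β : I → ℤ) :
    β ∈ SF cs h C α ↔ β ∈ EC cs h C ∧ cpr cs h β α = 1 := by
  unfold SF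
  rw [Set.Finite.mem_toFinset]
  rfl

/-- the data of a level: `S'` represents two-cycles of `w` -/
structure LT [Finite W] (cs : CoxeterSystem M W) (h : IsCartan M A) (X : (I → ℤ) → Subgroup Y) (t : Y) (w : W)
    (C : List (I → ℤ)) (α : I → ℤ) (S' : Finset (I → ℤ)) : Prop where
  root : ∀ c ∈ C, IsRoot cs h c
  wC : ∀ c ∈ C, rep cs h w c = c
  mem : α ∈ EC cs h C
  wα : rep cs h w α = α
  cn : Cn t X α
  cn' : Cn t X (-α)
  m1 : ∀ β ∈ S', β ∈ EC cs h C ∧ cpr cs h β α = 1 ∧ cpr cs h β (rep cs h w β) = 0 ∧ rep cs h w β ∉ S'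
  m2 : ∀ β ∈ S', α - β ∈ S' ∨ rep cs h w (α - β) ∈ S'

/-- the fixed points of `t` in `⟨X β, X (w β)⟩` -/
def DG (cs : CoxeterSystem M W) (h : IsCartan M A) (X : (I → ℤ) → Subgroup Y) (t : Y) (w : W) (β : I → ℤ) :
    Subgroup Y := (X β ⊔ X (rep cs h w β)) ⊓ Subgroup.centralizer {t}

open Classical in
/-- the partner -/
noncomputable def oo (cs : CoxeterSystem M W) (h : IsCartan M A) (w : W) (α : I → ℤ) (S' : Finset (I → ℤ))
    (β : I → ℤ) : I → ℤ := if α - β ∈ S' then α - β else rep cs h w (α - β)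

theorem comm_sup {A₁ A₂ B₁ B₂ : Subgroup Y} (h11 : ∀ a ∈ A₁, ∀ b ∈ B₁, a * b = b * a)
    (h12 : ∀ a ∈ A₁, ∀ b ∈ B₂, a * b = b * a) (h21 : ∀ a ∈ A₂, ∀ b ∈ B₁, a * b = b * a)
    (h22 : ∀ a ∈ A₂, ∀ b ∈ B₂, a * b = b * a) : ∀ a ∈ A₁ ⊔ A₂, ∀ b ∈ B₁ ⊔ B₂, a * b = b * a := by
  intro a ha b hb
  have key : ∀ A : Subgroup Y, (∀ a ∈ A, ∀ b ∈ B₁, a * b = b * a) → (∀ a ∈ A, ∀ b ∈ B₂, a * b = b * a) →
      ∀ a ∈ A, ∀ b ∈ B₁ ⊔ B₂, a * b = b * a := by
    intro A h1 h2 a ha b hb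
    have h3 : B₁ ⊔ B₂ ≤ Subgroup.centralizer {a} := sup_le
      (fun b hb => Subgroup.mem_centralizer_singleton_iff.2 (h1 a ha b hb).symm)
      (fun b hb => Subgroup.mem_centralizer_singleton_iff.2 (h2 a ha b hb).symm)
    exact (Subgroup.mem_centralizer_singleton_iff.1 (h3 hb)).symm
  have h3 : A₁ ⊔ A₂ ≤ Subgroup.centralizer {b} := sup_le
    (fun a ha => Subgroup.mem_centralizer_singleton_iff.2 (key A₁ h11 h12 a ha b hb))
    (fun a ha => Subgroup.mem_centralizer_singleton_iff.2 (key A₂ h21 h22 a ha b hb))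
  exact Subgroup.mem_centralizer_singleton_iff.1 (h3 ha)

/-- the elements of a join of commuting subgroups -/
theorem mem_sup_comm {A₁ A₂ : Subgroup Y} (h12 : ∀ a ∈ A₁, ∀ b ∈ A₂, a * b = b * a) {g : Y} (hg : g ∈ A₁ ⊔ A₂) :
    ∃ u ∈ A₁, ∃ v ∈ A₂, g = u * v := by
  have hn : A₁ ≤ Subgroup.normalizer (A₂ : Set Y) := by
    intro a ha
    apply Subgroup.centralizer_le_normalizer
    rw [Subgroup.mem_centralizer_iff]
    exact fun b hb => (h12 a ha b hb).symm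
  have h1 : g ∈ ((A₁ ⊔ A₂ : Subgroup Y) : Set Y) := hg
  rw [Subgroup.coe_mul_of_left_le_normalizer_right _ _ hn, Set.mem_mul] at h1
  obtain ⟨u, hu, v, hv, e⟩ := h1
  exact ⟨u, hu, v, hv, e.symm⟩

section

variable [Finite W] [Finite Y] (R : RGD cs h p T n X) (hs : SL cs h)
  (hab : ∀ α, IsRoot cs h α → ∀ u ∈ X α, ∀ v ∈ X α, u * v = v * u) {q : ℕ}
  (hcard : ∀ α, IsRoot cs h α → Nat.card (X α) = q) (hq : 3 ≤ q) (hodd : Odd q)
  {t : Y} (htt : t * t = 1) {w : W} (hww : ∀ x, rep cs h w (rep cs h w x) = x)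
  (hθ : ∀ c, IsRoot cs h c → cj t (X c) = X (rep cs h w c)) {C : List (I → ℤ)} {α : I → ℤ} {S' : Finset (I → ℤ)}
  (L : LT cs h X t w C α S')

include R hs hab hcard hq hodd htt hww hθ L

/-- `LT.ww` -/
theorem LT.w_mem {β : I → ℤ} (hβ : β ∈ SF cs h C α) : rep cs h w β ∈ SF cs h C α := by
  rw [mem_SF] at hβ ⊢
  obtain ⟨⟨h1, h2⟩, h3⟩ := hβ
  refine ⟨⟨h1.act w, fun c hc => ?_⟩, ?_⟩
  · have h4 := cpr_rep cs h w β (L.root c hc)
    rw [L.wC c hc, h2 c hc] at h4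
    exact h4
  · have h4 := cpr_rep cs h w β L.mem.1
    rw [L.wα, h3] at h4
    exact h4

theorem LT.heisQ : Heis (X α) X (SF cs h C α) (fun β => α - β) ∧
    QQ (X α) X (SF cs h C α) ≤ RGD.Sup X (EC cs h C) ∧
      Nat.card (QQ (X α) X (SF cs h C α)) = q ^ ((SF cs h C α).card + 1) :=
  heis_EC R hs hab hcard hq hodd L.root L.mem _ (mem_SF C α)

theorem LT.oddQ : Odd (Nat.card (QQ (X α) X (SF cs h C α))) := by
  rw [(LT.heisQ R hs hab hcard hq hodd htt hww hθ L).2.2]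
  exact hodd.pow

theorem LT.tQ : ∀ g ∈ QQ (X α) X (SF cs h C α), t * g * t⁻¹ ∈ QQ (X α) X (SF cs h C α) := by
  intro g hg
  rw [QQ_eq] at hg ⊢
  have h1 : cj t (RGD.Sup X (insert α (SF cs h C α : Set (I → ℤ)))) ≤
      RGD.Sup X (insert α (SF cs h C α : Set (I → ℤ))) := by
    rw [RGD.cj_Sup]
    refine iSup_le ?_
    rintro ⟨y, hy⟩
    show cj t (X y) ≤ _
    rcases hy with rfl | hy
    · rw [hθ _ L.mem.1, L.wα]
      exact RGD.le_Sup (Set.mem_insert _ _)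
    · have h2 := Finset.mem_coe.1 hy
      rw [hθ _ ((mem_SF C α y).1 h2).1.1]
      exact RGD.le_Sup (Set.mem_insert_of_mem _ (Finset.mem_coe.2
        (LT.w_mem R hs hab hcard hq hodd htt hww hθ L h2)))
  exact h1 ⟨g, hg, rfl⟩

theorem LT.mem_SF' {β : I → ℤ} (hβ : β ∈ S') : β ∈ SF cs h C α :=
  (mem_SF C α β).2 ⟨(L.m1 β hβ).1, (L.m1 β hβ).2.1⟩

theorem LT.sub_mem {β : I → ℤ} (hβ : β ∈ SF cs h C α) : α - β ∈ SF cs h C α :=
  (LT.heisQ R hs hab hcard hq hodd htt hww hθ L).1.mem β hβ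

theorem LT.oo_mem {β : I → ℤ} (hβ : β ∈ S') : oo cs h w α S' β ∈ S' := by
  unfold oo
  split_ifs with h1
  · exact h1
  · exact (L.m2 β hβ).resolve_left h1

theorem LT.oo_oo {β : I → ℤ} (hβ : β ∈ S') : oo cs h w α S' (oo cs h w α S' β) = β := by
  by_cases h1 : α - β ∈ S'
  · have e : oo cs h w α S' β = α - β := if_pos h1
    rw [e]
    have e2 : α - (α - β) = β := by abel
    unfold oo
    rw [e2, if_pos hβ]
  · have e : oo cs h w α S' β = rep cs h w (α - β) := if_neg h1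
    rw [e]
    have e2 : α - rep cs h w (α - β) = rep cs h w β := by
      rw [_root_.map_sub, L.wα]
      abel
    unfold oo
    rw [e2, if_neg (L.m1 β hβ).2.2.2, hww]

omit hs hab hcard hq hodd htt hww hθ L in
theorem X_disj {β γ : I → ℤ} (hβ : IsRoot cs h β) (hγ : IsRoot cs h γ) (hne : β ≠ γ) {g : Y} (h1 : g ∈ X β)
    (h2 : g ∈ X γ) : g = 1 := by
  have h3 : g ∈ X β ⊓ X γ := Subgroup.mem_inf.2 ⟨h1, h2⟩
  rw [X_inf_X R hβ hγ hne] at h3
  exact Subgroup.mem_bot.1 h3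

omit hcard hq hodd htt hww hθ L in
theorem comm_w {β : I → ℤ} (hβ : IsRoot cs h β) (hc : cpr cs h β (rep cs h w β) = 0) :
    ∀ u ∈ X β, ∀ v ∈ X (rep cs h w β), u * v = v * u := by
  intro u hu v hv
  exact comm_ge R hs hab hβ (hβ.act w) hc.ge hu hv

omit hs hab hcard hq hodd htt hww L in
theorem t_mem {β : I → ℤ} (hβ : IsRoot cs h β) {u : Y} (hu : u ∈ X β) : t * u * t⁻¹ ∈ X (rep cs h w β) := by
  rw [← hθ β hβ]
  exact ⟨u, hu, rfl⟩

omit hcard hq hodd hww L in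
/-- diagonal elements -/
theorem diag_mem {β : I → ℤ} (hβ : IsRoot cs h β) (hc : cpr cs h β (rep cs h w β) = 0) {u : Y} (hu : u ∈ X β) :
    u * (t * u * t⁻¹) ∈ DG cs h X t w β := by
  have h1 := t_mem R hθ hβ hu
  refine Subgroup.mem_inf.2 ⟨mul_mem ((le_sup_left : X β ≤ _) hu) ((le_sup_right : X (rep cs h w β) ≤ _) h1), ?_⟩
  rw [Subgroup.mem_centralizer_singleton_iff]
  have hti : t⁻¹ = t := inv_eq_of_mul_eq_one_right htt
  have h2 := comm_w R hs hab hβ hc u hu _ h1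
  have h3 : t * (u * (t * u * t⁻¹)) * t⁻¹ = u * (t * u * t⁻¹) := by
    rw [hti] at h2 ⊢
    calc t * (u * (t * u * t)) * t = (t * u * t) * u * (t * t) := by
          have : t * (u * (t * u * t)) * t = (t * u * t) * u * (t * t) := by group
          exact this
      _ = u * (t * u * t) := by rw [htt, mul_one, h2]
  exact (mul_inv_eq_iff_eq_mul.1 h3).symm

omit hcard hq hodd hww L in
/-- the elements of `DG` are diagonal -/
theorem exists_diag {β : I → ℤ} (hβ : IsRoot cs h β) (hne : β ≠ rep cs h w β) (hc : cpr cs h β (rep cs h w β) = 0)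
    (hw2 : rep cs h w (rep cs h w β) = β) {a : Y} (ha : a ∈ DG cs h X t w β) :
    ∃ u ∈ X β, a = u * (t * u * t⁻¹) := by
  obtain ⟨ha1, ha2⟩ := Subgroup.mem_inf.1 ha
  obtain ⟨u, hu, v, hv, rfl⟩ := mem_sup_comm (comm_w R hs hab hβ hc) ha1
  rw [Subgroup.mem_centralizer_singleton_iff] at ha2
  have h1 := t_mem R hθ hβ hu
  have h2 := t_mem R hθ (hβ.act w) hv
  rw [hw2] at h2
  have h3 : (t * u * t⁻¹) * (t * v * t⁻¹) = u * v := by
    calc (t * u * t⁻¹) * (t * v * t⁻¹) = t * (u * v) * t⁻¹ := by group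
      _ = u * v := by rw [← ha2, mul_inv_cancel_right]
  have h4 := comm_w R hs hab hβ hc _ h2 _ h1
  have h5 : u⁻¹ * (t * v * t⁻¹) = v * (t * u * t⁻¹)⁻¹ := by
    calc u⁻¹ * (t * v * t⁻¹) = u⁻¹ * ((t * v * t⁻¹) * (t * u * t⁻¹)) * (t * u * t⁻¹)⁻¹ := by group
      _ = u⁻¹ * (u * v) * (t * u * t⁻¹)⁻¹ := by rw [h4, h3]
      _ = v * (t * u * t⁻¹)⁻¹ := by group
  have h6 : v * (t * u * t⁻¹)⁻¹ = 1 := by
    refine X_disj R hβ (hβ.act w) hne ?_ (mul_mem hv (inv_mem h1))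
    rw [← h5]
    exact mul_mem (inv_mem hu) h2
  refine ⟨u, hu, ?_⟩
  rw [mul_inv_eq_one.1 h6]

/-- **the Heisenberg datum of the diagonal groups** -/
theorem LT.heisD : Heis (X α) (DG cs h X t w) S' (oo cs h w α S') := by
  obtain ⟨H, hL, hk⟩ := LT.heisQ R hs hab hcard hq hodd htt hww hθ L
  have hmem : ∀ {β}, β ∈ S' → β ∈ SF cs h C α := fun hβ => LT.mem_SF' R hs hab hcard hq hodd htt hww hθ L hβ
  have hw : ∀ {β}, β ∈ SF cs h C α → rep cs h w β ∈ SF cs h C α := fun hβ =>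
    LT.w_mem R hs hab hcard hq hodd htt hww hθ L hβ
  have hsub : ∀ {β}, β ∈ SF cs h C α → α - β ∈ SF cs h C α := fun hβ =>
    LT.sub_mem R hs hab hcard hq hodd htt hww hθ L hβ
  have hroot : ∀ {β}, β ∈ SF cs h C α → IsRoot cs h β := fun hβ => ((mem_SF C α _).1 hβ).1.1
  have hne : ∀ {β}, β ∈ S' → β ≠ rep cs h w β := by
    intro β hβ e
    have h1 := (L.m1 β hβ).2.2.1
    rw [← e, cpr_self cs h (hroot (hmem hβ))] at h1
    omega
  have hDQ : ∀ {β}, β ∈ SF cs h C α → DG cs h X t w β ≤ QQ (X α) X (SF cs h C α) := fun hβ =>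
    inf_le_left.trans (sup_le (H203.IF.Heis.X_le hβ) (H203.IF.Heis.X_le (hw hβ)))
  have hsubw : ∀ β, α - rep cs h w β = rep cs h w (α - β) := by
    intro β
    rw [_root_.map_sub, L.wα]
  refine ⟨fun i hi => LT.oo_mem R hs hab hcard hq hodd htt hww hθ L hi,
    fun i hi => LT.oo_oo R hs hab hcard hq hodd htt hww hθ L hi, H.zz,
    fun z hz i hi a ha => H.zQ hz (hDQ (hmem hi) ha), ?_, ?_, ?_⟩
  · intro i hi j hj hji a ha b hb
    have h1 : j ≠ α - i := by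
      intro e
      apply hji
      unfold oo
      rw [← e, if_pos hj]
    have h2 : rep cs h w j ≠ α - i := by
      intro e
      have h3 : α - i ∉ S' := by rw [← e]; exact (L.m1 j hj).2.2.2
      apply hji
      unfold oo
      rw [if_neg h3, ← e, hww]
    have h3 : j ≠ α - rep cs h w i := by
      rw [hsubw]
      intro e
      apply h2
      rw [e, hww]
    have h4 : rep cs h w j ≠ α - rep cs h w i := by
      rw [hsubw]
      intro e
      apply h1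
      have := congrArg (rep cs h w) e
      rwa [hww, hww] at this
    exact comm_sup (H.comm i (hmem hi) j (hmem hj) h1) (H.comm i (hmem hi) _ (hw (hmem hj)) h2)
      (H.comm _ (hw (hmem hi)) j (hmem hj) h3) (H.comm _ (hw (hmem hi)) _ (hw (hmem hj)) h4) a
      (Subgroup.mem_inf.1 ha).1 b (Subgroup.mem_inf.1 hb).1
  · intro i hi a ha b hb
    exact H.com (hDQ (hmem hi) ha) (hDQ (hmem (LT.oo_mem R hs hab hcard hq hodd htt hww hθ L hi)) hb)
  · intro i hi a ha ha1 z hz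
    have hir := hroot (hmem hi)
    obtain ⟨u, hu, rfl⟩ := exists_diag R hs hab htt hθ hir (hne hi) (L.m1 i hi).2.2.1 (hww i) ha
    have hu1 : u ≠ 1 := by
      rintro rfl
      apply ha1
      group
    -- a square root
    have ho : Odd (orderOf z) := Odd.of_dvd_nat (LT.oddQ R hs hab hcard hq hodd htt hww hθ L)
      (Subgroup.orderOf_dvd_natCard _ (H203.IF.Heis.Z_le hz))
    obtain ⟨c, hc, hcz⟩ : ∃ c ∈ X α, c * c = z := by
      obtain ⟨m, hm⟩ := Cfsg.Agent.H557.InvForm.exists_sqrt ho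
      exact ⟨z ^ m, pow_mem hz m, hm⟩
    obtain ⟨v, hv, huv⟩ := H.surj i (hmem hi) u hu hu1 c hc
    have hv' : v ∈ X (α - i) := hv
    have hjr := hroot (hsub (hmem hi))
    -- the partner
    have hjc : cpr cs h (α - i) (rep cs h w (α - i)) = 0 := by
      rcases L.m2 i hi with h1 | h1
      · exact (L.m1 _ h1).2.2.1
      · have h2 := (L.m1 _ h1).2.2.1
        rw [hww, hs _ _ (hjr.act w) hjr] at h2
        exact h2
    have hb := diag_mem R hs hab htt hθ hjr hjc hv'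
    refine ⟨v * (t * v * t⁻¹), ?_, ?_⟩
    · unfold oo
      split_ifs with h1
      · exact hb
      · have e : DG cs h X t w (rep cs h w (α - i)) = DG cs h X t w (α - i) := by
          unfold DG
          rw [hww, sup_comm]
        rw [e]
        exact hb
    · have hu' := t_mem R hθ hir hu
      have hv'' := t_mem R hθ hjr hv'
      have huQ : u ∈ QQ (X α) X (SF cs h C α) := H203.IF.Heis.X_le (hmem hi) hu
      have hvQ : v ∈ QQ (X α) X (SF cs h C α) := H203.IF.Heis.X_le (hsub (hmem hi)) hv'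
      have hu'Q : t * u * t⁻¹ ∈ QQ (X α) X (SF cs h C α) := H203.IF.Heis.X_le (hw (hmem hi)) hu'
      have hv''Q : t * v * t⁻¹ ∈ QQ (X α) X (SF cs h C α) := H203.IF.Heis.X_le (hw (hsub (hmem hi))) hv''
      have e1 : ⁅u, t * v * t⁻¹⁆ = 1 := by
        refine H203.IF.com_eq_one (H.comm i (hmem hi) _ (hw (hsub (hmem hi))) ?_ u hu _ hv'')
        rw [← hsubw]
        intro e
        exact hne hi (sub_right_injective e).symm
      have e2 : ⁅t * u * t⁻¹, v⁆ = 1 := by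
        refine H203.IF.com_eq_one (H.comm _ (hw (hmem hi)) _ (hsub (hmem hi)) ?_ _ hu' v hv')
        intro e
        exact hne hi (sub_right_injective e)
      have e3 : ⁅t * u * t⁻¹, t * v * t⁻¹⁆ = c := by
        calc ⁅t * u * t⁻¹, t * v * t⁻¹⁆ = t * ⁅u, v⁆ * t⁻¹ := by
              rw [commutatorElement_def, commutatorElement_def]; group
          _ = c := by rw [huv, L.cn c hc, mul_inv_cancel_right]
      have e4 : ⁅u, v * (t * v * t⁻¹)⁆ = c := by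
        rw [H.mul_right (H.com huQ hv''Q) hvQ, e1, mul_one, huv]
      have e5 : ⁅t * u * t⁻¹, v * (t * v * t⁻¹)⁆ = c := by
        rw [H.mul_right (H.com hu'Q hv''Q) hvQ, e2, one_mul, e3]
      rw [H.mul_left (by rw [e5]; exact hc) huQ, e4, e5, hcz]

/-- **the order of `C_Q(t)`** -/
theorem LT.card_ge : q ^ (S'.card + 1) ≤
    Nat.card (QQ (X α) X (SF cs h C α) ⊓ Subgroup.centralizer {t} : Subgroup Y) := by
  obtain ⟨H, hL, hk⟩ := LT.heisQ R hs hab hcard hq hodd htt hww hθ L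
  have H' := LT.heisD R hs hab hcard hq hodd htt hww hθ L
  have hmem : ∀ {β}, β ∈ S' → β ∈ SF cs h C α := fun hβ => LT.mem_SF' R hs hab hcard hq hodd htt hww hθ L hβ
  have hw : ∀ {β}, β ∈ SF cs h C α → rep cs h w β ∈ SF cs h C α := fun hβ =>
    LT.w_mem R hs hab hcard hq hodd htt hww hθ L hβ
  have h1 := H'.card_ge (X_ne_bot R L.mem.1)
  have h2 : QQ (X α) (DG cs h X t w) S' ≤ QQ (X α) X (SF cs h C α) ⊓ Subgroup.centralizer {t} := by
    refine H203.IF.Heis.QQ_le (le_inf H203.IF.Heis.Z_le fun z hz => ?_) fun i hi => ?_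
    · exact Subgroup.mem_centralizer_singleton_iff.2 (L.cn z hz).symm
    · exact le_inf (inf_le_left.trans (sup_le (H203.IF.Heis.X_le (hmem hi)) (H203.IF.Heis.X_le (hw (hmem hi)))))
        inf_le_right
  refine le_trans ?_ (h1.trans (Subgroup.card_le_of_le h2))
  rw [hcard α L.mem.1, pow_succ, mul_comm]
  refine Nat.mul_le_mul_left _ ?_
  rw [← Finset.prod_const]
  refine Finset.prod_le_prod' fun i hi => ?_
  have hir : IsRoot cs h i := ((mem_SF C α _).1 (hmem hi)).1.1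
  have hc := (L.m1 i hi).2.2.1
  have hne : i ≠ rep cs h w i := by
    intro e
    rw [← e, cpr_self cs h hir] at hc
    omega
  rw [← hcard i hir]
  refine Nat.card_le_card_of_injective (fun u : X i => (⟨u * (t * u * t⁻¹), diag_mem R hs hab htt hθ hir hc u.2⟩ :
    DG cs h X t w i)) ?_
  intro u v e
  have e1 : (u : Y) * (t * u * t⁻¹) = v * (t * v * t⁻¹) := congrArg Subtype.val e
  have e2 : (v : Y)⁻¹ * u = (t * v * t⁻¹) * (t * u * t⁻¹)⁻¹ := by
    calc (v : Y)⁻¹ * u = (v : Y)⁻¹ * (u * (t * u * t⁻¹)) * (t * u * t⁻¹)⁻¹ := by group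
      _ = (t * v * t⁻¹) * (t * u * t⁻¹)⁻¹ := by rw [e1]; group
  have e3 : (v : Y)⁻¹ * u = 1 := by
    refine X_disj R hir (hir.act w) hne (mul_mem (inv_mem v.2) u.2) ?_
    rw [e2]
    exact mul_mem (t_mem R hθ hir v.2) (inv_mem (t_mem R hθ hir u.2))
  exact Subtype.ext (inv_mul_eq_one.1 e3).symm

end

/-- `z ∈ ⟨X α, X (-α)⟩` -/
theorem inv2_mem_sup [Finite W] (R : RGD cs h p T n X) {α : I → ℤ} {z : Y} (hz : Inv2 cs h T X α z) :
    z ∈ X α ⊔ X (-α) := by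
  obtain ⟨u, hu, hu1⟩ : ∃ u ∈ X α, u ≠ 1 := by
    by_contra hcon
    push Not at hcon
    exact X_ne_bot R hz.root ((Subgroup.eq_bot_iff_forall _).2 hcon)
  obtain ⟨v, hv, hv1⟩ : ∃ u ∈ X (-α), u ≠ 1 := by
    by_contra hcon
    push Not at hcon
    exact X_ne_bot R hz.root.neg ((Subgroup.eq_bot_iff_forall _).2 hcon)
  refine (Subgroup.closure_le _).2 ?_ (hz.opp u hu v hv hu1 hv1)
  rintro y (rfl | rfl)
  · exact (le_sup_left : X α ≤ _) hu
  · exact (le_sup_right : X (-α) ≤ _) hv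

/-- what is known of a level -/
structure LvOf [Finite W] (cs : CoxeterSystem M W) (h : IsCartan M A) (X : (I → ℤ) → Subgroup Y) (t : Y)
    (C : List (I → ℤ)) (α : I → ℤ) (b : ℕ) (z : Y) (l : Cfsg.Agent.H176.IFr.Level Y) : Prop where
  Q : l.Q = QQ (X α) X (SF cs h C α) ⊓ Subgroup.centralizer {t}
  R : l.R = X α
  z : l.z = z
  b : l.b = b
  n : l.n ∈ X α ⊔ X (-α)

section

variable [Finite W] [Finite Y] (R : RGD cs h p T n X) (hs : SL cs h)
  (hab : ∀ α, IsRoot cs h α → ∀ u ∈ X α, ∀ v ∈ X α, u * v = v * u) {q : ℕ}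
  (hcard : ∀ α, IsRoot cs h α → Nat.card (X α) = q) (hq : 3 ≤ q) (hodd : Odd q)
  {t : Y} (htt : t * t = 1) {w : W} (hww : ∀ x, rep cs h w (rep cs h w x) = x)
  (hθ : ∀ c, IsRoot cs h c → cj t (X c) = X (rep cs h w c)) {C : List (I → ℤ)} {α : I → ℤ} {S' : Finset (I → ℤ)}
  (L : LT cs h X t w C α S')

include R hs hab hcard hq hodd htt hww hθ L

/-- **the level of the frame lemma** -/
theorem LT.exists_level {d : ℕ} (hS' : S'.card = 2 * d) {z : Y} (hz : Inv2 cs h T X α z) (hz2 : z * z = 1) :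
    ∃ l : Cfsg.Agent.H176.IFr.Level Y, LvOf cs h X t C α (q ^ (d + 1)) z l := by
  obtain ⟨H, hL, hk⟩ := LT.heisQ R hs hab hcard hq hodd htt hww hθ L
  have ho := LT.oddQ R hs hab hcard hq hodd htt hww hθ L
  have hge := LT.card_ge R hs hab hcard hq hodd htt hww hθ L
  rw [hS'] at hge
  obtain ⟨v, hv, hv1⟩ : ∃ v ∈ X (-α), v ≠ 1 := by
    by_contra hcon
    push Not at hcon
    exact X_ne_bot R L.mem.1.neg ((Subgroup.eq_bot_iff_forall _).2 hcon)
  obtain ⟨a, ha, b, hb, m, e, hm1, hm2, hm3⟩ := cj_mu R L.mem.1 hv hv1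
  refine ⟨⟨QQ (X α) X (SF cs h C α) ⊓ Subgroup.centralizer {t}, X α, m, z, q ^ (d + 1), ?_⟩, ⟨rfl, rfl, rfl, rfl, ?_⟩⟩
  · refine ⟨?_, ?_, ?_, hz2, ?_⟩
    · exact Odd.of_dvd_nat ho (Subgroup.card_dvd_of_le inf_le_left)
    · intro D hD hDR
      have h1 := iso_t H (X_ne_bot R L.mem.1) ho htt (fun z hz => L.cn z hz)
        (LT.tQ R hs hab hcard hq hodd htt hww hθ L) D hD hDR
      rw [hcard α L.mem.1] at h1
      set N := Nat.card (QQ (X α) X (SF cs h C α) ⊓ Subgroup.centralizer {t} : Subgroup Y)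
      refine (Nat.pow_le_pow_iff_left two_ne_zero).1 ?_
      calc (q ^ (d + 1) * Nat.card D) ^ 2 = q ^ (2 * d + 1) * (Nat.card D ^ 2 * q) := by ring
        _ ≤ N * N := Nat.mul_le_mul hge h1
        _ = N ^ 2 := by ring
    · intro x hx hx1 x' hx' hx1'
      refine hz.opp x hx (m * x' * m⁻¹) ?_ hx1 ?_
      · rw [← hm1]
        exact ⟨x', hx', rfl⟩
      · intro h0
        apply hx1'
        have h1 : x' = m⁻¹ * (m * x' * m⁻¹) * m := by group
        rw [h1, h0]; group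
    · intro g hg
      apply Subgroup.centralizer_le_normalizer
      rw [Subgroup.mem_centralizer_iff]
      exact fun u hu => H.zQ hu (Subgroup.mem_inf.1 hg).1
  · show m ∈ X α ⊔ X (-α)
    rw [e]
    exact mul_mem (mul_mem ((le_sup_left : X α ≤ _) ha) ((le_sup_right : X (-α) ≤ _) hv)) ((le_sup_left : X α ≤ _) hb)

omit R hs hab hcard hq hodd htt hww hθ in
theorem LT.AA_le : X α ⊔ X (-α) ≤ RGD.Sup X (EC cs h C) ⊓ Subgroup.centralizer {t} := by
  refine sup_le (le_inf (RGD.le_Sup L.mem) fun u hu => ?_) (le_inf (RGD.le_Sup ?_) fun u hu => ?_)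
  · exact Subgroup.mem_centralizer_singleton_iff.2 (L.cn u hu).symm
  · exact ⟨L.mem.1.neg, fun c hc => by rw [cpr_neg_left _ (L.root c hc), L.mem.2 c hc, neg_zero]⟩
  · exact Subgroup.mem_centralizer_singleton_iff.2 (L.cn' u hu).symm

omit R hs hab hcard hq hodd htt hww hθ in
theorem LT.In {b : ℕ} {z : Y} {l : Cfsg.Agent.H176.IFr.Level Y} (hl : LvOf cs h X t C α b z l)
    (hz : z ∈ X α ⊔ X (-α)) : Cfsg.Agent.H176.IFr.In (Subgroup.centralizer {t}) l :=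
  ⟨by rw [hl.Q]; exact inf_le_right, (Subgroup.mem_inf.1 (LT.AA_le L hl.n)).2,
    by rw [hl.z]; exact (Subgroup.mem_inf.1 (LT.AA_le L hz)).2⟩

/-- normalisation of the level by the deeper group -/
theorem LT.norm_le : RGD.Sup X (EC cs h (α :: C)) ⊓ Subgroup.centralizer {t} ≤
      Subgroup.normalizer ((QQ (X α) X (SF cs h C α) ⊓ Subgroup.centralizer {t} : Subgroup Y) : Set Y) ∧
    RGD.Sup X (EC cs h (α :: C)) ≤ Subgroup.normalizer (X α : Set Y) := by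
  have hα := L.mem.1
  have h1 : ∀ g ∈ RGD.Sup X (EC cs h (α :: C)), ∀ u ∈ QQ (X α) X (SF cs h C α), g * u * g⁻¹ ∈ QQ (X α) X (SF cs h C α) := by
    intro g hg u hu
    refine norm_QQ R hs hab hα (SF cs h C α) (fun β hβ => ⟨((mem_SF C α β).1 hβ).1.1, ((mem_SF C α β).1 hβ).2⟩)
      (E := EC cs h (α :: C)) ?_ ?_ hg hu
    · intro γ hγ
      exact ⟨hγ.1, hγ.2 α List.mem_cons_self⟩
    · intro γ hγ β hβ hγβ
      obtain ⟨⟨h2, h3⟩, h4⟩ := (mem_SF C α β).1 hβ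
      rw [mem_SF]
      refine ⟨⟨hγβ, fun c hc => ?_⟩, ?_⟩
      · rw [cpr_add cs h _ _ (L.root c hc), hγ.2 c (List.mem_cons_of_mem _ hc), h3 c hc, add_zero]
      · rw [cpr_add cs h _ _ hα, hγ.2 α List.mem_cons_self, h4, zero_add]
  refine ⟨?_, ?_⟩
  · intro g hg
    obtain ⟨hg1, hg2⟩ := Subgroup.mem_inf.1 hg
    have key : ∀ g ∈ RGD.Sup X (EC cs h (α :: C)), g ∈ Subgroup.centralizer ({t} : Set Y) →
        ∀ u ∈ QQ (X α) X (SF cs h C α) ⊓ Subgroup.centralizer {t},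
          g * u * g⁻¹ ∈ QQ (X α) X (SF cs h C α) ⊓ Subgroup.centralizer {t} := by
      intro g hg1 hg2 u hu
      obtain ⟨hu1, hu2⟩ := Subgroup.mem_inf.1 hu
      exact Subgroup.mem_inf.2 ⟨h1 g hg1 u hu1, mul_mem (mul_mem hg2 hu2) (inv_mem hg2)⟩
    rw [Subgroup.mem_normalizer_iff]
    intro u
    refine ⟨key g hg1 hg2 u, fun hu => ?_⟩
    have h2 := key g⁻¹ (inv_mem hg1) (inv_mem hg2) _ hu
    have h3 : g⁻¹ * (g * u * g⁻¹) * g⁻¹⁻¹ = u := by group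
    rwa [h3] at h2
  · refine RGD.Sup_le fun r hr u hu => ?_
    apply Subgroup.centralizer_le_normalizer
    rw [Subgroup.mem_centralizer_iff]
    intro v hv
    have h2 : cpr cs h r α = 0 := hr.2 α List.mem_cons_self
    exact (comm_ge R hs hab hr.1 hα h2.ge hu hv).symm

omit L in
/-- two levels -/
theorem LT.nrm (L : LT cs h X t w C α S') {C₂ : List (I → ℤ)} {α₂ : I → ℤ} {S₂ : Finset (I → ℤ)}
    (L₂ : LT cs h X t w C₂ α₂ S₂) (hC : EC cs h C₂ ⊆ EC cs h (α :: C)) {b b₂ : ℕ} {z z₂ : Y}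
    {l l₂ : Cfsg.Agent.H176.IFr.Level Y} (hl : LvOf cs h X t C α b z l) (hl₂ : LvOf cs h X t C₂ α₂ b₂ z₂ l₂)
    (hz₂ : z₂ ∈ X α₂ ⊔ X (-α₂)) : Cfsg.Agent.H176.IFr.Nrm l l₂ := by
  obtain ⟨h1, h2⟩ := LT.norm_le R hs hab hcard hq hodd htt hww hθ L
  obtain ⟨-, hL₂, -⟩ := LT.heisQ R hs hab hcard hq hodd htt hww hθ L₂
  have h3 : RGD.Sup X (EC cs h C₂) ≤ RGD.Sup X (EC cs h (α :: C)) := RGD.Sup_mono hC
  have h4 : RGD.Sup X (EC cs h C₂) ⊓ Subgroup.centralizer {t} ≤ RGD.Sup X (EC cs h (α :: C)) ⊓ Subgroup.centralizer {t} :=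
    inf_le_inf_right _ h3
  have h5 : RGD.Sup X (EC cs h C₂) ⊓ Subgroup.centralizer {t} ≤ Subgroup.normalizer (l.Q : Set Y) := by
    rw [hl.Q]
    exact h4.trans h1
  have h6 : RGD.Sup X (EC cs h C₂) ⊓ Subgroup.centralizer {t} ≤ Subgroup.normalizer (l.R : Set Y) := by
    rw [hl.R]
    exact (inf_le_left.trans h3).trans h2
  have h7 : l₂.Q ≤ RGD.Sup X (EC cs h C₂) ⊓ Subgroup.centralizer {t} := by
    rw [hl₂.Q]
    exact inf_le_inf_right _ hL₂
  have h8 := LT.AA_le L₂ hl₂.n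
  have h9 := LT.AA_le L₂ hz₂
  rw [← hl₂.z] at h9
  exact ⟨h7.trans h5, h7.trans h6, h5 h8, h6 h8, h5 h9, h6 h9⟩

/-- **the recursion for the order of the centraliser** -/
theorem LT.card_rec {S₂ : Finset (I → ℤ)} (L₂ : LT cs h X t w C (-α) S₂) {d : ℕ} (hc₁ : S'.card = 2 * d)
    (hc₂ : S₂.card = 2 * d) {z : Y} (hz : Inv2 cs h T X α z) :
    q ^ (2 * (2 * d + 1)) * Nat.card (RGD.Sup X (EC cs h (α :: C)) ⊓ Subgroup.centralizer {t} : Subgroup Y) ≤
      Nat.card (RGD.Sup X (EC cs h C) ⊓ Subgroup.centralizer {t} : Subgroup Y) := by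
  have hα := L.mem.1
  obtain ⟨H₁, hL₁, -⟩ := LT.heisQ R hs hab hcard hq hodd htt hww hθ L
  obtain ⟨H₂, hL₂, -⟩ := LT.heisQ R hs hab hcard hq hodd htt hww hθ L₂
  have g1 := LT.card_ge R hs hab hcard hq hodd htt hww hθ L
  have g2 := LT.card_ge R hs hab hcard hq hodd htt hww hθ L₂
  rw [hc₁] at g1
  rw [hc₂] at g2
  obtain ⟨-, hN⟩ := LT.norm_le R hs hab hcard hq hodd htt hww hθ L
  set Q₁ := QQ (X α) X (SF cs h C α) ⊓ Subgroup.centralizer {t} with hQ₁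
  set Q₂ := QQ (X (-α)) X (SF cs h C (-α)) ⊓ Subgroup.centralizer {t} with hQ₂
  set D := RGD.Sup X (EC cs h C) ⊓ Subgroup.centralizer {t} with hD
  set D' := RGD.Sup X (EC cs h (α :: C)) ⊓ Subgroup.centralizer {t} with hD'
  set N := Subgroup.normalizer (X α : Set Y) with hNd
  have hmemn : -α ∈ EC cs h C := L₂.mem
  -- `N ∩ Q₂ = 1`
  have hi2 : N ⊓ Q₂ = ⊥ := by
    rw [Subgroup.eq_bot_iff_forall]
    intro g hg
    obtain ⟨hg1, hg2⟩ := Subgroup.mem_inf.1 hg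
    exact norm_inf' R hs hab hcard hq hodd hz L.root L.mem _ _ (mem_SF C α) (mem_SF C (-α))
      (Subgroup.mem_inf.1 hg2).1 hg1
  -- `D' ∩ Q₁ = 1`
  have hi1 : D' ⊓ Q₁ = ⊥ := by
    rw [Subgroup.eq_bot_iff_forall]
    intro g hg
    obtain ⟨hg1, hg2⟩ := Subgroup.mem_inf.1 hg
    have hgn : g ∈ Subgroup.normalizer (X (-α) : Set Y) := by
      have h1 : RGD.Sup X (EC cs h (α :: C)) ≤ Subgroup.normalizer (X (-α) : Set Y) := by
        refine RGD.Sup_le fun r hr u hu => ?_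
        apply Subgroup.centralizer_le_normalizer
        rw [Subgroup.mem_centralizer_iff]
        intro v hv
        have h2 : cpr cs h r (-α) = 0 := by
          rw [cpr_neg_right cs h r hα, hr.2 α List.mem_cons_self, neg_zero]
        exact (comm_ge R hs hab hr.1 hα.neg h2.ge hu hv).symm
      exact h1 (Subgroup.mem_inf.1 hg1).1
    have h3 : ∀ β, β ∈ SF cs h C α ↔ β ∈ EC cs h C ∧ cpr cs h β (- -α) = 1 := by
      intro β
      rw [mem_SF, neg_neg]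
    have h4 : g ∈ QQ (X (- -α)) X (SF cs h C α) := by
      rw [neg_neg]
      exact (Subgroup.mem_inf.1 hg2).1
    exact norm_inf' R hs hab hcard hq hodd (Inv2.neg hz) L.root hmemn _ _ (mem_SF C (-α)) h3 h4 hgn
  have hQ₂D : Q₂ ≤ D := inf_le_inf_right _ hL₂
  have hQ₁D : Q₁ ≤ N ⊓ D := by
    refine le_inf ?_ (inf_le_inf_right _ hL₁)
    intro g hg
    apply Subgroup.centralizer_le_normalizer
    rw [Subgroup.mem_centralizer_iff]
    exact fun u hu => H₁.zQ hu (Subgroup.mem_inf.1 hg).1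
  have hD'D : D' ≤ N ⊓ D :=
    le_inf (inf_le_left.trans hN) (inf_le_inf_right _ (RGD.Sup_mono (EC_mono α C)))
  have e1 : Nat.card (N ⊓ D : Subgroup Y) * N.relIndex D = Nat.card D := by
    rw [← Subgroup.inf_relIndex_right]
    exact H203.IF.card_rel inf_le_right
  have e2 : q ^ (2 * d + 1) ≤ N.relIndex D := by
    refine le_trans ?_ (Subgroup.relIndex_le_of_le_right hQ₂D (H203.IF.rel_ne _ _))
    rw [← Subgroup.inf_relIndex_right, hi2, Subgroup.relIndex_bot_left]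
    exact g2
  have e3 : Nat.card D' * D'.relIndex (N ⊓ D) = Nat.card (N ⊓ D : Subgroup Y) := H203.IF.card_rel hD'D
  have e4 : q ^ (2 * d + 1) ≤ D'.relIndex (N ⊓ D) := by
    refine le_trans ?_ (Subgroup.relIndex_le_of_le_right hQ₁D (H203.IF.rel_ne _ _))
    rw [← Subgroup.inf_relIndex_right, hi1, Subgroup.relIndex_bot_left]
    exact g1
  calc q ^ (2 * (2 * d + 1)) * Nat.card D' = Nat.card D' * q ^ (2 * d + 1) * q ^ (2 * d + 1) := by ring
    _ ≤ Nat.card D' * D'.relIndex (N ⊓ D) * N.relIndex D := Nat.mul_le_mul (Nat.mul_le_mul_left _ e4) e2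
    _ = Nat.card D := by rw [e3, e1]

end

section main

variable [Finite W] [Finite Y] (R : RGD cs h p T n X) (hs : SL cs h)
  (hab : ∀ α, IsRoot cs h α → ∀ u ∈ X α, ∀ v ∈ X α, u * v = v * u) {q : ℕ}
  (hcard : ∀ α, IsRoot cs h α → Nat.card (X α) = q) (hq : 3 ≤ q) (hodd : Odd q)
  {t : Y} (htt : t * t = 1) {w : W} (hww : ∀ x, rep cs h w (rep cs h w x) = x)
  (hθ : ∀ c, IsRoot cs h c → cj t (X c) = X (rep cs h w c))

include R hs hab hcard hq hodd htt hww hθ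

/-- **the four levels** -/
theorem four {b₀ b₁ b₂ b₃ : I → ℤ} {S₀ S₁ S₂ S₃ S₀' S₁' S₂' S₃' : Finset (I → ℤ)}
    (L₀ : LT cs h X t w [] b₀ S₀) (L₀' : LT cs h X t w [] (-b₀) S₀')
    (L₁ : LT cs h X t w [b₀] b₁ S₁) (L₁' : LT cs h X t w [b₀] (-b₁) S₁')
    (L₂ : LT cs h X t w [b₁, b₀] b₂ S₂) (L₂' : LT cs h X t w [b₁, b₀] (-b₂) S₂')
    (L₃ : LT cs h X t w [b₂, b₁, b₀] b₃ S₃) (L₃' : LT cs h X t w [b₂, b₁, b₀] (-b₃) S₃')
    {d₀ d₁ d₂ d₃ : ℕ} (c₀ : S₀.card = 2 * d₀) (c₀' : S₀'.card = 2 * d₀) (c₁ : S₁.card = 2 * d₁)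
    (c₁' : S₁'.card = 2 * d₁) (c₂ : S₂.card = 2 * d₂) (c₂' : S₂'.card = 2 * d₂) (c₃ : S₃.card = 2 * d₃)
    (c₃' : S₃'.card = 2 * d₃) (hsim : ∀ i, ∃ z, Inv2 cs h T X (sr i) z)
    (hsq : ∀ α z, Inv2 cs h T X α z → z * z = 1) {B : Subgroup Y}
    (hB : ∀ α z, Inv2 cs h T X α z → ∀ y ∈ B, ¬ IsConj z y) :
    q ^ (d₀ + d₁ + d₂ + d₃ + 4) ≤ B.relIndex (Subgroup.centralizer {t}) ∧
    q ^ (4 * (d₀ + d₁ + d₂ + d₃) + 8) ≤ Nat.card (Subgroup.centralizer ({t} : Set Y)) := by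
  obtain ⟨z₀, hz₀⟩ := exists_inv2 R hsim L₀.mem.1
  obtain ⟨z₁, hz₁⟩ := exists_inv2 R hsim L₁.mem.1
  obtain ⟨z₂, hz₂⟩ := exists_inv2 R hsim L₂.mem.1
  obtain ⟨z₃, hz₃⟩ := exists_inv2 R hsim L₃.mem.1
  constructor
  · obtain ⟨l₀, hl₀⟩ := LT.exists_level R hs hab hcard hq hodd htt hww hθ L₀ c₀ hz₀ (hsq _ _ hz₀)
    obtain ⟨l₁, hl₁⟩ := LT.exists_level R hs hab hcard hq hodd htt hww hθ L₁ c₁ hz₁ (hsq _ _ hz₁)
    obtain ⟨l₂, hl₂⟩ := LT.exists_level R hs hab hcard hq hodd htt hww hθ L₂ c₂ hz₂ (hsq _ _ hz₂)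
    obtain ⟨l₃, hl₃⟩ := LT.exists_level R hs hab hcard hq hodd htt hww hθ L₃ c₃ hz₃ (hsq _ _ hz₃)
    have m₀ := inv2_mem_sup R hz₀
    have m₁ := inv2_mem_sup R hz₁
    have m₂ := inv2_mem_sup R hz₂
    have m₃ := inv2_mem_sup R hz₃
    set N := Subgroup.centralizer ({t} : Set Y) with hN
    have hin : ∀ l ∈ [l₀, l₁, l₂, l₃], Cfsg.Agent.H176.IFr.In N l := by
      intro l hl
      simp only [List.mem_cons, List.not_mem_nil, or_false] at hl
      rcases hl with rfl | rfl | rfl | rfl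
      · exact LT.In L₀ hl₀ m₀
      · exact LT.In L₁ hl₁ m₁
      · exact LT.In L₂ hl₂ m₂
      · exact LT.In L₃ hl₃ m₃
    have hzc : ∀ l ∈ [l₀, l₁, l₂, l₃], ∀ y ∈ B, ¬ IsConj l.z y := by
      intro l hl
      simp only [List.mem_cons, List.not_mem_nil, or_false] at hl
      rcases hl with rfl | rfl | rfl | rfl
      · rw [hl₀.z]; exact hB _ _ hz₀
      · rw [hl₁.z]; exact hB _ _ hz₁
      · rw [hl₂.z]; exact hB _ _ hz₂
      · rw [hl₃.z]; exact hB _ _ hz₃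
    have hm10 : EC cs h [b₁, b₀] ⊆ EC cs h [b₀] := EC_mono _ _
    have hm21 : EC cs h [b₂, b₁, b₀] ⊆ EC cs h [b₁, b₀] := EC_mono _ _
    have hpw : [l₀, l₁, l₂, l₃].Pairwise Cfsg.Agent.H176.IFr.Nrm := by
      simp only [List.pairwise_cons, List.mem_cons, List.not_mem_nil, or_false, forall_eq_or_imp, forall_eq,
        List.Pairwise.nil, and_true, IsEmpty.forall_iff, implies_true]
      refine ⟨⟨?_, ?_, ?_⟩, ⟨?_, ?_⟩, ?_⟩
      · exact LT.nrm R hs hab hcard hq hodd htt hww hθ L₀ L₁ (le_refl _) hl₀ hl₁ m₁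
      · exact LT.nrm R hs hab hcard hq hodd htt hww hθ L₀ L₂ hm10 hl₀ hl₂ m₂
      · exact LT.nrm R hs hab hcard hq hodd htt hww hθ L₀ L₃ (hm21.trans hm10) hl₀ hl₃ m₃
      · exact LT.nrm R hs hab hcard hq hodd htt hww hθ L₁ L₂ (le_refl _) hl₁ hl₂ m₂
      · exact LT.nrm R hs hab hcard hq hodd htt hww hθ L₁ L₃ hm21 hl₁ hl₃ m₃
      · exact LT.nrm R hs hab hcard hq hodd htt hww hθ L₂ L₃ (le_refl _) hl₂ hl₃ m₃
    have hfr := Cfsg.Agent.H176.IFr.frame [l₀, l₁, l₂, l₃] N (N ⧸ B.subgroupOf N) hin hpw (by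
      intro l hl y
      induction y using QuotientGroup.induction_on with
      | H g =>
        intro he
        have h1 : ((⟨l.z, (hin l hl).z⟩ * g : N) : N ⧸ B.subgroupOf N) = (g : N ⧸ B.subgroupOf N) := he
        rw [eq_comm, QuotientGroup.eq, Subgroup.mem_subgroupOf] at h1
        have h2 : ((g⁻¹ * (⟨l.z, (hin l hl).z⟩ * g) : N) : Y) = (g : Y)⁻¹ * l.z * g := by
          show (g : Y)⁻¹ * (l.z * g) = _
          group
        rw [h2] at h1
        exact hzc l hl _ h1 (isConj_iff.2 ⟨(g : Y)⁻¹, by rw [inv_inv]⟩))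
    have e1 : (([l₀, l₁, l₂, l₃].map Cfsg.Agent.H176.IFr.Level.b).prod) = q ^ (d₀ + d₁ + d₂ + d₃ + 4) := by
      simp only [List.map_cons, List.map_nil, List.prod_cons, List.prod_nil, hl₀.b, hl₁.b, hl₂.b, hl₃.b]
      ring
    rw [e1] at hfr
    exact hfr
  · have r₀ := LT.card_rec R hs hab hcard hq hodd htt hww hθ L₀ L₀' c₀ c₀' hz₀
    have r₁ := LT.card_rec R hs hab hcard hq hodd htt hww hθ L₁ L₁' c₁ c₁' hz₁
    have r₂ := LT.card_rec R hs hab hcard hq hodd htt hww hθ L₂ L₂' c₂ c₂' hz₂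
    have r₃ := LT.card_rec R hs hab hcard hq hodd htt hww hθ L₃ L₃' c₃ c₃' hz₃
    have h5 : 1 ≤ Nat.card (RGD.Sup X (EC cs h [b₃, b₂, b₁, b₀]) ⊓ Subgroup.centralizer {t} : Subgroup Y) := Nat.card_pos
    have h6 : Nat.card (RGD.Sup X (EC cs h []) ⊓ Subgroup.centralizer {t} : Subgroup Y) ≤
        Nat.card (Subgroup.centralizer ({t} : Set Y)) := Subgroup.card_le_of_le inf_le_right
    refine le_trans ?_ (r₀.trans h6)
    calc q ^ (4 * (d₀ + d₁ + d₂ + d₃) + 8) = q ^ (2 * (2 * d₀ + 1)) * (q ^ (2 * (2 * d₁ + 1)) *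
          (q ^ (2 * (2 * d₂ + 1)) * (q ^ (2 * (2 * d₃ + 1)) * 1))) := by ring
      _ ≤ _ := by
        refine Nat.mul_le_mul_left _ (le_trans (Nat.mul_le_mul_left _ ?_) r₁)
        refine le_trans (Nat.mul_le_mul_left _ ?_) r₂
        exact le_trans (Nat.mul_le_mul_left _ h5) r₃

end main

end Cfsg.Agent.H176.IFn
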